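import Mathlib
import Cfsg.Prelude

set_option autoImplicit false

namespace Cfsg.Agent.Helper11

universe u

theorem ea_map_equiv {p : ℕ} {S S' : Type u} [Group S] [Group S'] (η : S ≃* S') {A : Subgroup S}
    (hA : Cfsg.IsElementaryAbelian p A) : Cfsg.IsElementaryAbelian p (A.map η.toMonoidHom) := by
  unfold Cfsg.IsElementaryAbelian at hA ⊢
  obtain ⟨hc, he⟩ := hA
  refine ⟨⟨⟨?_⟩⟩, ?_⟩
  · rintro ⟨_, a, ha, rfl⟩ ⟨_, b, hb, rfl⟩
    apply Subtype.ext
    show η a * η b = η b * η a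
    have h1 : a * b = b * a := congrArg Subtype.val (hc.is_comm.comm ⟨a, ha⟩ ⟨b, hb⟩)
    rw [← map_mul, ← map_mul, h1]
  · rintro _ ⟨a, ha, rfl⟩
    show η a ^ p = 1
    rw [← map_pow, he a ha, map_one]

theorem maxEA_map_equiv {p : ℕ} {S S' : Type u} [Group S] [Group S'] (η : S ≃* S')
    {A : Subgroup S} (hA : A ∈ Cfsg.maxElementaryAbelianSubgroups p S) :
    A.map η.toMonoidHom ∈ Cfsg.maxElementaryAbelianSubgroups p S' := by
  obtain ⟨hEA, hmax⟩ := hA
  show Cfsg.IsElementaryAbelian p (A.map η.toMonoidHom) ∧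
    ∀ B : Subgroup S', Cfsg.IsElementaryAbelian p B →
      Nat.card B ≤ Nat.card (A.map η.toMonoidHom)
  refine ⟨ea_map_equiv η hEA, ?_⟩
  intro B' hB'
  have h1 := hmax (B'.map η.symm.toMonoidHom) (ea_map_equiv η.symm hB')
  rw [Subgroup.card_map_of_injective η.symm.injective] at h1
  rw [Subgroup.card_map_of_injective η.injective]
  exact h1

theorem map_sSup_of_equiv {S S' : Type u} [Group S] [Group S'] (η : S ≃* S')
    (𝒜 : Set (Subgroup S)) (𝒜' : Set (Subgroup S'))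
    (h1 : ∀ A ∈ 𝒜, A.map η.toMonoidHom ∈ 𝒜')
    (h2 : ∀ A' ∈ 𝒜', A'.map η.symm.toMonoidHom ∈ 𝒜) :
    (sSup 𝒜).map η.toMonoidHom = sSup 𝒜' := by
  apply le_antisymm
  · rw [Subgroup.map_le_iff_le_comap]
    apply sSup_le
    intro A hA
    rw [← Subgroup.map_le_iff_le_comap]
    exact le_sSup (h1 A hA)
  · apply sSup_le
    intro A' hA'
    have h3 : (A'.map η.symm.toMonoidHom).map η.toMonoidHom = A' := by
      rw [Subgroup.map_map]
      have h4 : η.toMonoidHom.comp η.symm.toMonoidHom = MonoidHom.id S' := by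
        ext x
        simp
      rw [h4, Subgroup.map_id]
    rw [← h3]
    exact Subgroup.map_mono (le_sSup (h2 A' hA'))

theorem thompson_map_equiv {p : ℕ} {S S' : Type u} [Group S] [Group S'] (η : S ≃* S') :
    (Cfsg.thompsonSubgroup p S).map η.toMonoidHom = Cfsg.thompsonSubgroup p S' := by
  unfold Cfsg.thompsonSubgroup
  exact map_sSup_of_equiv η _ _ (fun A hA => maxEA_map_equiv η hA)
    (fun A' hA' => maxEA_map_equiv η.symm hA')

theorem omegaOne_map_equiv {p : ℕ} {S S' : Type u} [Group S] [Group S'] (η : S ≃* S')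
    (K : Subgroup S) :
    (Cfsg.omegaOne p K).map η.toMonoidHom = Cfsg.omegaOne p (K.map η.toMonoidHom) := by
  unfold Cfsg.omegaOne
  rw [MonoidHom.map_closure]
  congr 1
  ext y
  constructor
  · rintro ⟨x, ⟨hxK, hxp⟩, rfl⟩
    refine ⟨⟨x, hxK, rfl⟩, ?_⟩
    show η x ^ p = 1
    rw [← map_pow, hxp, map_one]
  · rintro ⟨⟨x, hxK, rfl⟩, hyp⟩
    refine ⟨x, ⟨hxK, ?_⟩, rfl⟩
    apply η.injective
    rw [map_pow, map_one]
    exact hyp

theorem centralizer_map_equiv {S S' : Type u} [Group S] [Group S'] (η : S ≃* S')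
    (K : Subgroup S) :
    (Subgroup.centralizer (K : Set S)).map η.toMonoidHom
      = Subgroup.centralizer ((K.map η.toMonoidHom : Subgroup S') : Set S') := by
  ext y
  constructor
  · rintro ⟨x, hx, rfl⟩
    rw [Subgroup.mem_centralizer_iff]
    rintro _ ⟨k, hk, rfl⟩
    have h1 : k * x = x * k := (Subgroup.mem_centralizer_iff.1 hx) k hk
    show η k * η x = η x * η k
    rw [← map_mul, ← map_mul, h1]
  · intro hy
    rw [Subgroup.mem_centralizer_iff] at hy
    refine ⟨η.symm y, ?_, η.apply_symm_apply y⟩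
    show η.symm y ∈ Subgroup.centralizer (K : Set S)
    rw [Subgroup.mem_centralizer_iff]
    intro k hk
    apply η.injective
    have h1 : η k * y = y * η k := hy (η k) ⟨k, hk, rfl⟩
    rw [map_mul, map_mul, η.apply_symm_apply]
    exact h1

theorem center_map_equiv {S S' : Type u} [Group S] [Group S'] (η : S ≃* S') :
    (Subgroup.center S).map η.toMonoidHom = Subgroup.center S' := by
  ext y
  constructor
  · rintro ⟨x, hx, rfl⟩
    rw [Subgroup.mem_center_iff]
    intro g'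
    have h1 : η.symm g' * x = x * η.symm g' := (Subgroup.mem_center_iff.1 hx) (η.symm g')
    have h2 : η (η.symm g' * x) = η (x * η.symm g') := by rw [h1]
    rw [map_mul, map_mul, η.apply_symm_apply] at h2
    exact h2
  · intro hy
    rw [Subgroup.mem_center_iff] at hy
    refine ⟨η.symm y, ?_, η.apply_symm_apply y⟩
    show η.symm y ∈ Subgroup.center S
    rw [Subgroup.mem_center_iff]
    intro g
    apply η.injective
    rw [map_mul, map_mul, η.apply_symm_apply]
    exact hy (η g)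

theorem omegaCT_map_equiv {p : ℕ} {S S' : Type u} [Group S] [Group S'] (η : S ≃* S') :
    (Cfsg.omegaCenterThompson p S).map η.toMonoidHom = Cfsg.omegaCenterThompson p S' := by
  unfold Cfsg.omegaCenterThompson
  rw [omegaOne_map_equiv, Subgroup.map_inf _ _ _ η.injective, centralizer_map_equiv,
    thompson_map_equiv]

theorem stable_comp {p : ℕ} {S S' H : Type u} [Group S] [Group S'] [Group H] (η : S ≃* S')
    (τ' : S' →* H) (h : Cfsg.IsStableEmbedding p τ') :
    Cfsg.IsStableEmbedding p (τ'.comp η.toMonoidHom) := by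
  obtain ⟨hinj, hfin, ⟨P, hP⟩, hcen, hJ, hst⟩ := h
  refine ⟨?_, hfin, ⟨P, ?_⟩, hcen, ?_, ?_⟩
  · intro a b hab
    have h1 : τ' (η a) = τ' (η b) := hab
    exact η.injective (hinj h1)
  · rw [hP]
    ext y
    constructor
    · rintro ⟨x', rfl⟩
      refine ⟨η.symm x', ?_⟩
      show τ' (η (η.symm x')) = τ' x'
      rw [MulEquiv.apply_symm_apply]
    · rintro ⟨x, rfl⟩
      exact ⟨η x, rfl⟩
  · rw [← Subgroup.map_map, thompson_map_equiv]
    exact hJ
  · intro V _ hV
    apply hst V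
    rw [← Subgroup.map_map, omegaCT_map_equiv] at hV
    exact hV

theorem snc_family_map {p : ℕ} {S S' : Type u} [Group S] [Group S'] (η : S ≃* S')
    (W : Subgroup S)
    (hW : Cfsg.omegaOne p (Subgroup.center S) ≤ W ∧
      ∀ (H : Type u) [Group H] (τ : S →* H), Cfsg.IsStableEmbedding p τ → (W.map τ).Normal) :
    Cfsg.omegaOne p (Subgroup.center S') ≤ W.map η.toMonoidHom ∧
      ∀ (H : Type u) [Group H] (τ : S' →* H), Cfsg.IsStableEmbedding p τ →
        ((W.map η.toMonoidHom).map τ).Normal := by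
  obtain ⟨h1, h2⟩ := hW
  constructor
  · rw [← center_map_equiv η, ← omegaOne_map_equiv]
    exact Subgroup.map_mono h1
  · intro H _ τ hτ
    rw [Subgroup.map_map]
    exact h2 H (τ.comp η.toMonoidHom) (stable_comp η τ hτ)

theorem snc_map_equiv {p : ℕ} {S S' : Type u} [Group S] [Group S'] (η : S ≃* S') :
    (Cfsg.stableNormalClosure p S).map η.toMonoidHom = Cfsg.stableNormalClosure p S' := by
  ext x'
  constructor
  · rintro ⟨x, hx, rfl⟩
    have hx2 : x ∈ Cfsg.stableNormalClosure p S := hx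
    unfold Cfsg.stableNormalClosure at hx2 ⊢
    rw [Subgroup.mem_sInf] at hx2 ⊢
    intro W' hW'
    obtain ⟨w', hw', hw⟩ := hx2 (W'.map η.symm.toMonoidHom) (snc_family_map η.symm W' hW')
    have h3 : η.symm w' = x := hw
    rw [← h3]
    show η (η.symm w') ∈ W'
    rw [MulEquiv.apply_symm_apply]
    exact hw'
  · intro hx'
    rw [Subgroup.mem_map]
    refine ⟨η.symm x', ?_, η.apply_symm_apply x'⟩
    unfold Cfsg.stableNormalClosure at hx' ⊢
    rw [Subgroup.mem_sInf] at hx' ⊢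
    intro W hW
    obtain ⟨w, hw, hwx⟩ := hx' (W.map η.toMonoidHom) (snc_family_map η W hW)
    have h3 : η w = x' := hwx
    rw [← h3, MulEquiv.symm_apply_apply]
    exact hw

theorem closure_normal_of_conj {H : Type u} [Group H] (T : Set H)
    (hT : ∀ t ∈ T, ∀ g : H, g * t * g⁻¹ ∈ T) : (Subgroup.closure T).Normal := by
  refine ⟨fun a ha g => ?_⟩
  induction ha using Subgroup.closure_induction with
  | mem t ht => exact Subgroup.subset_closure (hT t ht g)
  | one =>
    rw [mul_one, mul_inv_cancel]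
    exact Subgroup.one_mem _
  | mul a b _ _ iha ihb =>
    have h1 : g * (a * b) * g⁻¹ = (g * a * g⁻¹) * (g * b * g⁻¹) := by group
    rw [h1]
    exact Subgroup.mul_mem _ iha ihb
  | inv a _ iha =>
    have h1 : g * a⁻¹ * g⁻¹ = (g * a * g⁻¹)⁻¹ := by group
    rw [h1]
    exact Subgroup.inv_mem _ iha

theorem omegaCT_map_normal {p : ℕ} {S H : Type u} [Group S] [Group H] (τ : S →* H)
    (hinj : Function.Injective τ) (hJ : ((Cfsg.thompsonSubgroup p S).map τ).Normal) :
    ((Cfsg.omegaCenterThompson p S).map τ).Normal := by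
  unfold Cfsg.omegaCenterThompson Cfsg.omegaOne
  rw [MonoidHom.map_closure]
  apply closure_normal_of_conj
  rintro _ ⟨x, ⟨⟨hxJ, hxC⟩, hxp⟩, rfl⟩ g
  have h1 : g * τ x * g⁻¹ ∈ (Cfsg.thompsonSubgroup p S).map τ :=
    hJ.conj_mem _ ⟨x, hxJ, rfl⟩ g
  obtain ⟨y, hyJ, hy⟩ := h1
  rw [← hy]
  have hxC' : x ∈ Subgroup.centralizer ((Cfsg.thompsonSubgroup p S : Subgroup S) : Set S) := hxC
  refine Set.mem_image_of_mem τ ⟨⟨hyJ, ?_⟩, ?_⟩
  · show y ∈ Subgroup.centralizer ((Cfsg.thompsonSubgroup p S : Subgroup S) : Set S)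
    rw [Subgroup.mem_centralizer_iff]
    intro j hj
    have h2 : g⁻¹ * τ j * g⁻¹⁻¹ ∈ (Cfsg.thompsonSubgroup p S).map τ :=
      hJ.conj_mem _ ⟨j, hj, rfl⟩ g⁻¹
    obtain ⟨j', hj'J, hj'⟩ := h2
    have hcomm : j' * x = x * j' := (Subgroup.mem_centralizer_iff.1 hxC') j' hj'J
    apply hinj
    rw [map_mul, map_mul, hy]
    have e1 : τ j = g * τ j' * g⁻¹ := by
      rw [hj']
      group
    have e2 : τ j' * τ x = τ x * τ j' := by rw [← map_mul, ← map_mul, hcomm]
    rw [e1]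
    calc g * τ j' * g⁻¹ * (g * τ x * g⁻¹) = g * (τ j' * τ x) * g⁻¹ := by group
      _ = g * (τ x * τ j') * g⁻¹ := by rw [e2]
      _ = g * τ x * g⁻¹ * (g * τ j' * g⁻¹) := by group
  · apply hinj
    rw [map_pow, hy, map_one, conj_pow, ← map_pow, hxp, map_one, mul_one, mul_inv_cancel]

theorem exists_maxEA (p : ℕ) (S : Type u) [Group S] [Finite S] :
    ∃ A : Subgroup S, A ∈ Cfsg.maxElementaryAbelianSubgroups p S := by
  have hfin : {A : Subgroup S | Cfsg.IsElementaryAbelian p A}.Finite := Set.toFinite _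
  have hbot : Cfsg.IsElementaryAbelian p (⊥ : Subgroup S) := by
    unfold Cfsg.IsElementaryAbelian
    refine ⟨⟨⟨fun a b => Subsingleton.elim _ _⟩⟩, ?_⟩
    intro a ha
    rw [Subgroup.mem_bot] at ha
    rw [ha, one_pow]
  have hne : {A : Subgroup S | Cfsg.IsElementaryAbelian p A}.Nonempty := ⟨⊥, hbot⟩
  obtain ⟨A, hA, hmax⟩ :=
    Set.exists_max_image _ (fun A : Subgroup S => Nat.card A) hfin hne
  exact ⟨A, hA, fun B hB => hmax B hB⟩

theorem omegaZ_le_omegaCT {p : ℕ} {S : Type u} [Group S] [Finite S] :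
    Cfsg.omegaOne p (Subgroup.center S) ≤ Cfsg.omegaCenterThompson p S := by
  unfold Cfsg.omegaCenterThompson Cfsg.omegaOne
  apply Subgroup.closure_mono
  rintro x ⟨hxc, hxp⟩
  refine ⟨⟨?_, Subgroup.center_le_centralizer _ hxc⟩, hxp⟩
  obtain ⟨A, hAmem⟩ := exists_maxEA p S
  obtain ⟨hA, hmax⟩ := hAmem
  haveI hZn : (Subgroup.zpowers x).Normal := ⟨fun a ha g => by
    have hac : a ∈ Subgroup.center S := (Subgroup.zpowers_le.2 hxc) ha
    rw [Subgroup.mem_center_iff.1 hac g, mul_inv_cancel_right]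
    exact ha⟩
  have hzc : ∀ z ∈ Subgroup.zpowers x, z ∈ Subgroup.center S :=
    fun z hz => (Subgroup.zpowers_le.2 hxc) hz
  have hzp : ∀ z ∈ Subgroup.zpowers x, z ^ p = 1 := by
    intro z hz
    obtain ⟨k, rfl⟩ := Subgroup.mem_zpowers_iff.1 hz
    rw [← zpow_natCast, ← zpow_mul, mul_comm, zpow_mul, zpow_natCast, hxp, one_zpow]
  have hB : Cfsg.IsElementaryAbelian p (A ⊔ Subgroup.zpowers x) := by
    unfold Cfsg.IsElementaryAbelian at hA ⊢
    obtain ⟨hAc, hAe⟩ := hA
    have hAcomm : ∀ a ∈ A, ∀ b ∈ A, a * b = b * a :=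
      fun a ha b hb => congrArg Subtype.val (hAc.is_comm.comm ⟨a, ha⟩ ⟨b, hb⟩)
    constructor
    · refine ⟨⟨?_⟩⟩
      rintro ⟨b₁, hb₁⟩ ⟨b₂, hb₂⟩
      apply Subtype.ext
      show b₁ * b₂ = b₂ * b₁
      rw [Subgroup.mem_sup_of_normal_right] at hb₁ hb₂
      obtain ⟨a₁, ha₁, z₁, hz₁, rfl⟩ := hb₁
      obtain ⟨a₂, ha₂, z₂, hz₂, rfl⟩ := hb₂
      have c1 := Subgroup.mem_center_iff.1 (hzc z₁ hz₁)
      have c2 := Subgroup.mem_center_iff.1 (hzc z₂ hz₂)
      calc a₁ * z₁ * (a₂ * z₂) = a₁ * (z₁ * a₂) * z₂ := by group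
        _ = a₁ * (a₂ * z₁) * z₂ := by rw [← c1 a₂]
        _ = (a₁ * a₂) * (z₁ * z₂) := by group
        _ = (a₂ * a₁) * (z₂ * z₁) := by rw [hAcomm a₁ ha₁ a₂ ha₂, ← c1 z₂]
        _ = a₂ * (a₁ * z₂) * z₁ := by group
        _ = a₂ * (z₂ * a₁) * z₁ := by rw [c2 a₁]
        _ = a₂ * z₂ * (a₁ * z₁) := by group
    · intro b hb
      rw [Subgroup.mem_sup_of_normal_right] at hb
      obtain ⟨a, ha, z, hz, rfl⟩ := hb
      have c := Subgroup.mem_center_iff.1 (hzc z hz)
      have hcm : Commute a z := c a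
      rw [hcm.mul_pow, hAe a ha, hzp z hz, one_mul]
  have heq : A = A ⊔ Subgroup.zpowers x :=
    Subgroup.eq_of_le_of_card_ge le_sup_left (hmax _ hB)
  have hxA : x ∈ A := by
    rw [heq]
    exact (le_sup_right : Subgroup.zpowers x ≤ _) (Subgroup.mem_zpowers x)
  exact (le_sSup (show A ∈ Cfsg.maxElementaryAbelianSubgroups p S from ⟨hA, hmax⟩)) hxA

theorem omegaZ_ne_bot {p : ℕ} [Fact p.Prime] {S : Type u} [Group S] [Finite S] [Nontrivial S]
    (hS : IsPGroup p S) : Cfsg.omegaOne p (Subgroup.center S) ≠ ⊥ := by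
  haveI := hS.center_nontrivial
  have hZ : IsPGroup p ↥(Subgroup.center S) := hS.to_subgroup _
  obtain ⟨k, hk⟩ := IsPGroup.iff_card.1 hZ
  have hk0 : k ≠ 0 := by
    intro h0
    rw [h0, pow_zero] at hk
    exact not_subsingleton _ (Nat.card_eq_one_iff_unique.1 hk).1
  obtain ⟨z, hz⟩ := exists_prime_orderOf_dvd_card' (G := ↥(Subgroup.center S)) p
    (by rw [hk]; exact dvd_pow_self p hk0)
  intro hbot
  have hmem : (z : S) ∈ Cfsg.omegaOne p (Subgroup.center S) := by
    apply Subgroup.subset_closure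
    refine ⟨z.2, ?_⟩
    have h1 : z ^ p = 1 := by
      rw [← hz]
      exact pow_orderOf_eq_one z
    exact congrArg Subtype.val h1
  rw [hbot, Subgroup.mem_bot] at hmem
  have hz1 : z = 1 := Subtype.ext hmem
  rw [hz1, orderOf_one] at hz
  exact (Fact.out : p.Prime).one_lt.ne hz

end Cfsg.Agent.Helper11
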