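import Mathlib
import Cfsg.Agent.Helper11.Taussky
import Cfsg.Agent.Helper24.CyclicMax
import Cfsg.Agent.Helper24.PChain
import Cfsg.Agent.Helper24.NormalCenter
import Cfsg.Prelude.Def_CaseTheorems

set_option autoImplicit false

namespace Cfsg.Agent.Helper11

open scoped commutatorElement

theorem cnas_conj_pow_inv {G : Type*} [Group G] (g c : G) (a : ℕ) :
    g⁻¹ * c ^ a * g = (g⁻¹ * c * g) ^ a := by
  have h := conj_pow (i := a) (a := g⁻¹) (b := c)
  rw [inv_inv] at h
  exact h.symm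

/-- If `g` and `h` both normalize `⟨c⟩`, their commutator centralizes `c`. -/
theorem cnas_comm_fix {G : Type*} [Group G] (g h c : G) (a b : ℕ)
    (ha : h⁻¹ * c * h = c ^ a) (hb : g⁻¹ * c * g = c ^ b) : ⁅g, h⁆ * c * ⁅g, h⁆⁻¹ = c := by
  have h1 : g⁻¹ * c ^ a * g = c ^ (b * a) := by
    rw [cnas_conj_pow_inv, hb, ← pow_mul]
  have h2 : h * c ^ a * h⁻¹ = c := by
    rw [← ha]
    group
  have h3 : h * c ^ (b * a) * h⁻¹ = c ^ b := by
    rw [mul_comm b a, pow_mul, ← conj_pow, h2]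
  have h4 : g * c ^ b * g⁻¹ = c := by
    rw [← hb]
    group
  calc ⁅g, h⁆ * c * ⁅g, h⁆⁻¹ = g * (h * (g⁻¹ * (h⁻¹ * c * h) * g) * h⁻¹) * g⁻¹ := by
        rw [commutatorElement_def]
        group
    _ = g * (h * (g⁻¹ * c ^ a * g) * h⁻¹) * g⁻¹ := by rw [ha]
    _ = g * (h * c ^ (b * a) * h⁻¹) * g⁻¹ := by rw [h1]
    _ = g * c ^ b * g⁻¹ := by rw [h3]
    _ = c := h4

/-- In a `p`-group, an element outside a subgroup has a power outside it whose `p`-th power
is inside. -/
theorem exists_pow_not_mem_pow_mem {G : Type*} [Group G] {p : ℕ}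
    (hG : IsPGroup p G) (A : Subgroup G) (y : G) (hy : y ∉ A) :
    ∃ j : ℕ, y ^ j ∉ A ∧ (y ^ j) ^ p ∈ A := by
  classical
  have hex : ∃ k, y ^ (p ^ k) ∈ A := by
    obtain ⟨N, hN⟩ := hG y
    exact ⟨N, by rw [hN]; exact A.one_mem⟩
  have hk := Nat.find_spec hex
  have hk0 : Nat.find hex ≠ 0 := by
    intro h0
    rw [h0, pow_zero, pow_one] at hk
    exact hy hk
  obtain ⟨k', hk'⟩ := Nat.exists_eq_succ_of_ne_zero hk0
  have hmin : y ^ (p ^ k') ∉ A := Nat.find_min hex (show k' < Nat.find hex by omega)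
  refine ⟨p ^ k', hmin, ?_⟩
  rw [hk'] at hk
  rw [← pow_mul, ← pow_succ]
  exact hk

/-- Adjoining to a normal subgroup an element outside it whose `p`-th power is inside gives
relative index `p`. -/
theorem relIndex_sup_zpowers_of_pow_mem {G : Type*} [Group G] {p : ℕ} [Fact p.Prime]
    (A : Subgroup G) [A.Normal] (x : G) (hxA : x ∉ A) (hxp : x ^ p ∈ A) :
    A.relIndex (A ⊔ Subgroup.zpowers x) = p := by
  rw [Subgroup.relIndex_sup_left]
  have h1 := Subgroup.relIndex_ker (K := Subgroup.zpowers x) (f := QuotientGroup.mk' A)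
  rw [QuotientGroup.ker_mk', MonoidHom.map_zpowers, Nat.card_zpowers] at h1
  rw [h1]
  apply orderOf_eq_prime
  · rw [← map_pow]
    exact (QuotientGroup.eq_one_iff _).mpr hxp
  · intro h
    exact hxA ((QuotientGroup.eq_one_iff x).mp h)

/-- A cyclic group of order `4` has only one involution. -/
theorem eq_of_sq_eq_one_of_isCyclic_four {T : Type*} [Group T] (hT : IsCyclic T)
    (hc : Nat.card T = 4) (a b : T) (ha : a ^ 2 = 1) (ha1 : a ≠ 1) (hb : b ^ 2 = 1)
    (hb1 : b ≠ 1) : a = b := by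
  haveI : Finite T := Nat.finite_of_card_ne_zero (by rw [hc]; norm_num)
  obtain ⟨g, hg⟩ := hT.exists_generator
  have hord : orderOf g = 4 := (orderOf_eq_card_of_forall_mem_zpowers hg).trans hc
  have h4 : g ^ 4 = 1 := by
    rw [← hord]
    exact pow_orderOf_eq_one g
  have key : ∀ y : T, y ^ 2 = 1 → y ≠ 1 → y = g ^ 2 := by
    intro y hy hy1
    have hmem : y ∈ Submonoid.powers g := by
      rw [mem_powers_iff_mem_zpowers]
      exact hg y
    obtain ⟨i, hi⟩ := (Submonoid.mem_powers_iff _ _).mp hmem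
    rw [← hi, ← pow_mul] at hy
    have hdvd : 4 ∣ i * 2 := by
      rw [← hord]
      exact orderOf_dvd_of_pow_eq_one hy
    obtain ⟨q, hq⟩ := hdvd
    have hi2 : i = 2 * q := by omega
    rcases Nat.even_or_odd' q with ⟨j, hj | hj⟩
    · exfalso
      apply hy1
      rw [← hi, hi2, hj]
      have e : 2 * (2 * j) = 4 * j := by ring
      rw [e, pow_mul, h4, one_pow]
    · rw [← hi, hi2, hj]
      have e : 2 * (2 * j + 1) = 4 * j + 2 := by ring
      rw [e, pow_add, pow_mul, h4, one_pow, one_mul]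
  rw [key a ha ha1, key b hb hb1]

theorem cnas_arith {i h' : ℕ} (h : 2 * (4 * h') ∣ i * (2 + 4 * h')) : 4 * h' ∣ i := by
  obtain ⟨k, hk⟩ := h
  have h2 : 2 * (i * (1 + 2 * h')) = 2 * (4 * h' * k) := by
    calc 2 * (i * (1 + 2 * h')) = i * (2 + 4 * h') := by ring
      _ = 2 * (4 * h') * k := hk
      _ = 2 * (4 * h' * k) := by ring
  have hk' : i * (1 + 2 * h') = 4 * h' * k := Nat.eq_of_mul_eq_mul_left (by norm_num) h2
  have hk'z : (i : ℤ) * (1 + 2 * (h' : ℤ)) = 4 * (h' : ℤ) * (k : ℤ) := by exact_mod_cast hk'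
  apply Int.natCast_dvd_natCast.mp
  refine ⟨(k : ℤ) * (1 - 2 * (h' : ℤ)) + (h' : ℤ) * (i : ℤ), ?_⟩
  push_cast
  linear_combination (1 - 2 * (h' : ℤ)) * hk'z

/-- If every element normalizes `⟨c⟩`, every subgroup `⟨c ^ e⟩` is normal. -/
theorem cnas_zpowers_pow_normal {P : Type*} [Group P] (c : P)
    (hpowc : ∀ g : P, ∃ r : ℕ, g * c * g⁻¹ = c ^ r) (e : ℕ) :
    (Subgroup.zpowers (c ^ e)).Normal := by
  refine ⟨fun y hy g => ?_⟩
  obtain ⟨k, rfl⟩ := Subgroup.mem_zpowers_iff.mp hy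
  obtain ⟨t, ht⟩ := hpowc g
  have h2 : g * c ^ e * g⁻¹ = (c ^ e) ^ t := by
    rw [← conj_pow, ht, ← pow_mul, ← pow_mul, mul_comm t e]
  rw [← conj_zpow, h2]
  exact Subgroup.zpow_mem _ (Subgroup.pow_mem _ (Subgroup.mem_zpowers _) t) k

theorem cnas_four_card {P : Type*} [Group P] [Finite P] (z b : P)
    (hZn : (Subgroup.zpowers z).Normal) (hz2 : z ^ 2 = 1) (hz1 : z ≠ 1) (hb2 : b ^ 2 = 1)
    (hbZ : b ∉ Subgroup.zpowers z) :
    Nat.card (Subgroup.zpowers z ⊔ Subgroup.zpowers b : Subgroup P) = 4 := by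
  haveI : Fact (Nat.Prime 2) := ⟨Nat.prime_two⟩
  haveI := hZn
  have hzord : orderOf z = 2 := orderOf_eq_prime hz2 hz1
  have h1 := Helper24.card_sup_zpowers_of_pow_prime Nat.prime_two (Subgroup.zpowers z) b hbZ hb2
  rw [Nat.card_zpowers, hzord] at h1
  exact h1.trans (by norm_num)

/-- A normal four-group contradicts the hypothesis that normal abelian subgroups are cyclic. -/
theorem cnas_four_contra {P : Type*} [Group P] [Finite P]
    (hn : ∀ A : Subgroup P, A.Normal → IsMulCommutative A → IsCyclic A)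
    (z b : P) (hZn : (Subgroup.zpowers z).Normal) (hz2 : z ^ 2 = 1) (hz1 : z ≠ 1)
    (hb2 : b ^ 2 = 1) (hbZ : b ∉ Subgroup.zpowers z)
    (hTn : (Subgroup.zpowers z ⊔ Subgroup.zpowers b : Subgroup P).Normal) : False := by
  haveI : Fact (Nat.Prime 2) := ⟨Nat.prime_two⟩
  have h4c := cnas_four_card z b hZn hz2 hz1 hb2 hbZ
  obtain ⟨T, hT⟩ : ∃ T : Subgroup P, T = Subgroup.zpowers z ⊔ Subgroup.zpowers b := ⟨_, rfl⟩
  rw [← hT] at h4c hTn
  have hTc : IsMulCommutative T :=
    IsPGroup.isMulCommutative_of_card_eq_prime_sq (p := 2) (h4c.trans (by norm_num))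
  have hTcyc : IsCyclic T := hn T hTn hTc
  have hzT : z ∈ T := by
    rw [hT]
    exact (le_sup_left : Subgroup.zpowers z ≤ _) (Subgroup.mem_zpowers z)
  have hbT : b ∈ T := by
    rw [hT]
    exact (le_sup_right : Subgroup.zpowers b ≤ _) (Subgroup.mem_zpowers b)
  have hb1 : b ≠ 1 := by
    intro h
    apply hbZ
    rw [h]
    exact Subgroup.one_mem _
  have heq := eq_of_sq_eq_one_of_isCyclic_four hTcyc h4c (⟨z, hzT⟩ : T) ⟨b, hbT⟩
    (Subtype.ext (by simpa using hz2)) (fun h => hz1 (congrArg Subtype.val h))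
    (Subtype.ext (by simpa using hb2)) (fun h => hb1 (congrArg Subtype.val h))
  apply hbZ
  have h2 : z = b := congrArg Subtype.val heq
  rw [← h2]
  exact Subgroup.mem_zpowers z

/-- A modular subgroup `⟨c, b⟩` with `⟨c⟩` normal self-centralizing produces a normal
four-group. -/
theorem cnas_modular_contra {P : Type*} [Group P] [Finite P]
    (hn : ∀ A : Subgroup P, A.Normal → IsMulCommutative A → IsCyclic A)
    (A : Subgroup P) (c b : P) (n : ℕ) (h4 : 4 ≤ n)
    (hAeq : A = Subgroup.zpowers c) (hordc : orderOf c = 2 ^ (n - 1))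
    (hpowc : ∀ g : P, ∃ r : ℕ, g * c * g⁻¹ = c ^ r)
    (hcomm : ∀ g h : P, ⁅g, h⁆ ∈ A) (hb2 : b ^ 2 = 1) (hbA : b ∉ A)
    (hbc : b * c * b⁻¹ = c ^ (1 + 2 ^ (n - 2))) : False := by
  obtain ⟨h', hh'⟩ : ∃ h' : ℕ, h' = 2 ^ (n - 4) := ⟨_, rfl⟩
  have hH : 2 ^ (n - 2) = 4 * h' := by
    rw [hh', show n - 2 = 2 + (n - 4) by omega, pow_add]
    norm_num
  have hM : 2 ^ (n - 1) = 2 * (4 * h') := by
    rw [← hH, ← pow_succ']
    congr 1
    omega
  rw [hH] at hbc
  rw [hM] at hordc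
  have hh'pos : 0 < h' := by
    rw [hh']
    positivity
  have hZn : (Subgroup.zpowers (c ^ (4 * h'))).Normal := cnas_zpowers_pow_normal c hpowc (4 * h')
  have hz2 : (c ^ (4 * h')) ^ 2 = 1 := by
    rw [← pow_mul, mul_comm (4 * h') 2, ← hordc]
    exact pow_orderOf_eq_one c
  have hz1 : c ^ (4 * h') ≠ 1 := by
    intro h
    have h1 := orderOf_dvd_of_pow_eq_one h
    rw [hordc] at h1
    have h2 := Nat.le_of_dvd (by omega) h1
    omega
  have hbZ : b ∉ Subgroup.zpowers (c ^ (4 * h')) := by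
    intro h
    apply hbA
    obtain ⟨k, hk⟩ := Subgroup.mem_zpowers_iff.mp h
    rw [← hk, hAeq]
    exact Subgroup.zpow_mem _ (Subgroup.pow_mem _ (Subgroup.mem_zpowers c) _) k
  have hbinv : b⁻¹ = b := inv_eq_of_mul_eq_one_left (by rw [← pow_two]; exact hb2)
  have hkey : ∀ g : P, ⁅b, g⁆ ∈ Subgroup.zpowers (c ^ (4 * h')) := by
    intro g
    have h1 : ⁅b, g⁆ ∈ Subgroup.zpowers c := by
      rw [← hAeq]
      exact hcomm b g
    rw [← mem_powers_iff_mem_zpowers] at h1
    obtain ⟨i, hi⟩ := (Submonoid.mem_powers_iff _ _).mp h1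
    have h2 : g * b * g⁻¹ = b * c ^ i := by
      have h3 : g * b⁻¹ * g⁻¹ = b⁻¹ * ⁅b, g⁆ := by
        rw [commutatorElement_def]
        group
      rw [hbinv, ← hi] at h3
      exact h3
    have h5 : (b * c ^ i) * (b * c ^ i) = 1 := by
      rw [← h2]
      calc g * b * g⁻¹ * (g * b * g⁻¹) = g * (b * b) * g⁻¹ := by group
        _ = 1 := by
          rw [← pow_two, hb2]
          group
    have h6 : b * c ^ i * b⁻¹ = c ^ ((1 + 4 * h') * i) := by
      rw [← conj_pow, hbc, ← pow_mul]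
    have h7 : c ^ ((1 + 4 * h') * i + i) = 1 := by
      rw [pow_add, ← h6]
      calc b * c ^ i * b⁻¹ * c ^ i = b * c ^ i * (b⁻¹ * c ^ i) := by group
        _ = b * c ^ i * (b * c ^ i) := by rw [hbinv]
        _ = 1 := h5
    have h8 : 2 * (4 * h') ∣ i * (2 + 4 * h') := by
      rw [← hordc]
      have e : i * (2 + 4 * h') = (1 + 4 * h') * i + i := by ring
      rw [e]
      exact orderOf_dvd_of_pow_eq_one h7
    obtain ⟨q, hq⟩ := cnas_arith h8
    rw [← hi, hq, pow_mul c (4 * h') q]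
    exact Subgroup.pow_mem _ (Subgroup.mem_zpowers _) q
  haveI := hZn
  exact cnas_four_contra hn (c ^ (4 * h')) b hZn hz2 hz1 hb2 hbZ
    (Helper24.sup_zpowers_normal (Subgroup.zpowers (c ^ (4 * h'))) b hkey)

/-- The odd case: a normal subgroup `⟨A, x⟩` with `A` cyclic of index `p` has a normal
non-cyclic subgroup of order `p ^ 2`. -/
theorem cnas_odd_contra {P : Type*} [Group P] [Finite P] {p : ℕ} [Fact p.Prime] (hp : p ≠ 2)
    (hP : IsPGroup p P)
    (hn : ∀ A : Subgroup P, A.Normal → IsMulCommutative A → IsCyclic A)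
    (A : Subgroup P) (hAn : A.Normal) (hAcyc : IsCyclic A)
    (hmax : ∀ B : Subgroup P, B.Normal → IsMulCommutative B → A ≤ B → B = A)
    (hcomm : ∀ g h : P, ⁅g, h⁆ ∈ A) (x : P) (hxA : x ∉ A) (hxp : x ^ p ∈ A) : False := by
  have hpp : p.Prime := Fact.out
  haveI := hAn
  obtain ⟨B, hB⟩ : ∃ B : Subgroup P, B = A ⊔ Subgroup.zpowers x := ⟨_, rfl⟩
  have hAB : A ≤ B := by
    rw [hB]
    exact le_sup_left
  have hxB : x ∈ B := by
    rw [hB]
    exact (le_sup_right : Subgroup.zpowers x ≤ _) (Subgroup.mem_zpowers x)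
  have hBn : B.Normal := by
    rw [hB]
    exact Helper24.sup_zpowers_normal A x (fun g => hcomm x g)
  have hidx : (A.subgroupOf B).index = p := by
    have h1 := relIndex_sup_zpowers_of_pow_mem A x hxA hxp
    rw [← hB] at h1
    exact h1
  have hnc : ¬ IsCyclic B := by
    intro hcyc
    have hBc : IsMulCommutative B := IsCyclic.isMulCommutative
    have h1 := hmax B hBn hBc hAB
    rw [h1] at hxB
    exact hxA hxB
  have hCcyc : IsCyclic (A.subgroupOf B) :=
    (Subgroup.subgroupOfEquivOfLe hAB).isCyclic.mpr hAcyc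
  obtain ⟨K, hK, hKcard⟩ := Helper24.omega_of_cyclic_index_p hp (hP.to_subgroup B) hnc
    (A.subgroupOf B) hCcyc hidx
  obtain ⟨N, hN⟩ : ∃ N : Subgroup P, N = K.map B.subtype := ⟨_, rfl⟩
  have hNmem : ∀ y : P, y ∈ N ↔ y ∈ B ∧ y ^ p = 1 := by
    intro y
    rw [hN, Subgroup.mem_map]
    constructor
    · rintro ⟨k, hk, rfl⟩
      refine ⟨k.2, ?_⟩
      have h1 := (hK k).mp hk
      have h2 := congrArg Subtype.val h1
      simpa using h2
    · rintro ⟨hyB, hyp⟩
      refine ⟨⟨y, hyB⟩, (hK _).mpr (Subtype.ext (by simpa using hyp)), rfl⟩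
  have hNn : N.Normal := by
    refine ⟨fun y hy g => ?_⟩
    rw [hNmem] at hy ⊢
    refine ⟨hBn.conj_mem y hy.1 g, ?_⟩
    rw [conj_pow, hy.2]
    group
  have hNcard : Nat.card N = p ^ 2 := by
    rw [hN, Subgroup.card_map_of_injective B.subtype_injective]
    exact hKcard
  have hNc : IsMulCommutative N := IsPGroup.isMulCommutative_of_card_eq_prime_sq hNcard
  have hNcyc : IsCyclic N := hn N hNn hNc
  obtain ⟨k0, hk0⟩ := hNcyc.exists_generator
  have h1 : orderOf k0 = Nat.card N := orderOf_eq_card_of_forall_mem_zpowers hk0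
  have h2 : k0 ^ p = 1 := Subtype.ext (by simpa using ((hNmem (k0 : P)).mp k0.2).2)
  have h3 : orderOf k0 ∣ p := orderOf_dvd_of_pow_eq_one h2
  rw [h1, hNcard] at h3
  have h4 : p ^ 2 ≤ p := Nat.le_of_dvd hpp.pos h3
  have h5 := hpp.two_le
  have h6 : p * 2 ≤ p * p := Nat.mul_le_mul_left p h5
  rw [pow_two] at h4
  omega

/-- The case `p = 2`. -/
theorem cnas_two {P : Type*} [Group P] [Finite P] (hP : IsPGroup 2 P)
    (hn : ∀ A : Subgroup P, A.Normal → IsMulCommutative A → IsCyclic A)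
    (A : Subgroup P) (c : P) (hAeq : A = Subgroup.zpowers c)
    (hmemA : ∀ g : P, g * c = c * g → g ∈ A)
    (hpowc : ∀ g : P, ∃ r : ℕ, g * c * g⁻¹ = c ^ r)
    (hcomm : ∀ g h : P, ⁅g, h⁆ ∈ A) (x : P) (hxA : x ∉ A) :
    (∃ n : ℕ, Nonempty (P ≃* QuaternionGroup n)) ∨
      (∃ n : ℕ, 8 ≤ n ∧ Nonempty (P ≃* DihedralGroup n)) ∨ Cfsg.IsQuasiDihedral P := by
  haveI : Fact (Nat.Prime 2) := ⟨Nat.prime_two⟩
  obtain ⟨m, hm⟩ := IsPGroup.iff_card.mp (hP.to_subgroup A)
  have hordc0 : orderOf c = 2 ^ m := by rw [← Nat.card_zpowers, ← hAeq, hm]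
  have hm2 : 2 ≤ m := by
    by_contra hlt
    apply hxA
    apply hmemA
    have hc2 : c ^ 2 = 1 := by
      have h1 : orderOf c ∣ 2 := by
        rw [hordc0]
        have h2 : m ≤ 1 := by omega
        exact (pow_dvd_pow 2 h2).trans (by norm_num)
      exact orderOf_dvd_iff_pow_eq_one.mp h1
    obtain ⟨r, hr⟩ := hpowc x
    rcases Nat.even_or_odd' r with ⟨k, hk | hk⟩
    · have h3 : x * c * x⁻¹ = 1 := by rw [hr, hk, pow_mul, hc2, one_pow]
      have h4 : c = 1 := by
        have h5 : c = x⁻¹ * (x * c * x⁻¹) * x := by group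
        rw [h5, h3]
        group
      rw [h4, mul_one, one_mul]
    · have h3 : x * c * x⁻¹ = c := by rw [hr, hk, pow_succ, pow_mul, hc2, one_pow, one_mul]
      exact mul_inv_eq_iff_eq_mul.mp h3
  obtain ⟨n, hn'⟩ : ∃ n, n = m + 1 := ⟨_, rfl⟩
  have hn3 : 3 ≤ n := by omega
  have hordc : orderOf c = 2 ^ (n - 1) := by
    rw [hordc0]
    congr 1
    omega
  have hcard : Nat.card A = 2 ^ (n - 1) := by rw [hAeq, Nat.card_zpowers, hordc]
  have hpe : ∀ k l : ℕ, c ^ k = c ^ l ↔ k ≡ l [MOD 2 ^ (n - 1)] := by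
    intro k l
    rw [← hordc]
    exact pow_eq_pow_iff_modEq
  have h4dvd : 4 ∣ 2 ^ (n - 1) := by
    have h1 : 2 ^ (n - 1) = 2 ^ (n - 3) * 4 := by
      rw [show n - 1 = (n - 3) + 2 by omega, pow_add]
      norm_num
    exact Dvd.intro_left _ h1.symm
  have hinvmod : ∀ t : ℕ, c ^ t = c⁻¹ → t % 4 = 3 := by
    intro t ht
    have h1 : c ^ (t + 1) = 1 := by rw [pow_succ, ht, inv_mul_cancel]
    have h2 : 2 ^ (n - 1) ∣ t + 1 := by
      rw [← hordc]
      exact orderOf_dvd_of_pow_eq_one h1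
    have h3 : 4 ∣ t + 1 := h4dvd.trans h2
    omega
  have hsdmod : 4 ≤ n → ∀ t : ℕ, c ^ t = c ^ (2 ^ (n - 2) - 1) → t % 4 = 3 := by
    intro h4 t ht
    have h1 : t ≡ 2 ^ (n - 2) - 1 [MOD 2 ^ (n - 1)] := (hpe _ _).mp ht
    have h3 : t % 4 = (2 ^ (n - 2) - 1) % 4 := Nat.ModEq.of_dvd h4dvd h1
    have hH : 2 ^ (n - 2) = 4 * 2 ^ (n - 4) := by
      rw [show n - 2 = 2 + (n - 4) by omega, pow_add]
      norm_num
    have hpos : 0 < 2 ^ (n - 4) := by positivity
    rw [hH] at h3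
    omega
  have hclaim2 : ∀ w : P, w ∉ A → ∀ r : ℕ, w * c * w⁻¹ = c ^ r → r % 4 = 3 := by
    intro w hwA r hr
    by_contra hr3
    have hodd : r % 2 = 1 := by
      by_contra heven
      obtain ⟨k, hk⟩ : 2 ∣ r := by omega
      have h1 : (w * c * w⁻¹) ^ (2 ^ (n - 2)) = 1 := by
        rw [hr, ← pow_mul, hk]
        have e : 2 * k * 2 ^ (n - 2) = 2 ^ (n - 1) * k := by
          have h2 : 2 ^ (n - 1) = 2 * 2 ^ (n - 2) := by
            rw [← pow_succ']
            congr 1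
            omega
          rw [h2]
          ring
        rw [e, pow_mul, ← hordc, pow_orderOf_eq_one, one_pow]
      rw [conj_pow] at h1
      have h2 : c ^ (2 ^ (n - 2)) = 1 := by
        have h5 : c ^ (2 ^ (n - 2)) = w⁻¹ * (w * c ^ (2 ^ (n - 2)) * w⁻¹) * w := by group
        rw [h5, h1]
        group
      have h3 := orderOf_dvd_of_pow_eq_one h2
      rw [hordc] at h3
      have h5 := (Nat.pow_dvd_pow_iff_le_right (by norm_num : 1 < 2)).mp h3
      omega
    have hr1 : r % 4 = 1 := by omega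
    obtain ⟨j, hjA, hjp⟩ := exists_pow_not_mem_pow_mem hP A w hwA
    obtain ⟨w', hw'⟩ : ∃ w', w' = w ^ j := ⟨_, rfl⟩
    rw [← hw'] at hjA hjp
    have hconj : w' * c * w'⁻¹ = c ^ (r ^ j) := by
      rw [hw']
      exact Helper24.conj_pow_eq_pow_pow hr j
    have hrj : r ^ j % 4 = 1 := by
      have h1 : r ^ j % 4 = (r % 4) ^ j % 4 := Nat.pow_mod r j 4
      rw [hr1, one_pow] at h1
      exact h1.trans (by norm_num)
    obtain ⟨s, hs⟩ : ∃ s : ℕ, w' * w' = c ^ s := by
      have h1 : w' * w' ∈ Subgroup.zpowers c := by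
        rw [← hAeq, ← pow_two]
        exact hjp
      rw [← mem_powers_iff_mem_zpowers] at h1
      obtain ⟨s, hs⟩ := (Submonoid.mem_powers_iff _ _).mp h1
      exact ⟨s, hs.symm⟩
    have hne : w' * c ≠ c * w' := fun h => hjA (hmemA w' h)
    obtain ⟨u, hu, halt⟩ := cyc2_core n hn3 c w' (r ^ j) s hordc hconj hs hne
    rcases halt with ⟨-, hcr⟩ | ⟨-, hcr⟩ | ⟨h4, hb2, hcr⟩ | ⟨h4, -, hcr⟩
    · have h1 := hinvmod _ hcr
      omega
    · have h1 := hinvmod _ hcr
      omega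
    · have hucomm : Commute u c := by
        obtain ⟨k, hk⟩ := Subgroup.mem_zpowers_iff.mp hu
        rw [← hk]
        exact (Commute.refl c).zpow_left k
      have hbconj : (u * w') * c * (u * w')⁻¹ = c ^ (1 + 2 ^ (n - 2)) := by
        rw [← hcr]
        have hucr : Commute u (c ^ (r ^ j)) := hucomm.pow_right _
        calc (u * w') * c * (u * w')⁻¹ = u * (w' * c * w'⁻¹) * u⁻¹ := by group
          _ = u * c ^ (r ^ j) * u⁻¹ := by rw [hconj]
          _ = c ^ (r ^ j) * u * u⁻¹ := by rw [hucr.eq]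
          _ = c ^ (r ^ j) := by group
      have huA : u ∈ A := by
        rw [hAeq]
        exact hu
      have hbA : u * w' ∉ A := by
        intro hmem
        apply hjA
        have h3 : w' = u⁻¹ * (u * w') := by group
        rw [h3]
        exact A.mul_mem (A.inv_mem huA) hmem
      exact cnas_modular_contra hn A c (u * w') n h4 hAeq hordc hpowc hcomm hb2 hbA hbconj
    · have h1 := hsdmod h4 _ hcr
      omega
  have hxx : ∀ g h : P, g ∉ A → h ∉ A → g * h ∈ A := by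
    intro g h hg hh
    by_contra hgh
    obtain ⟨rg, hrg⟩ := hpowc g
    obtain ⟨rh, hrh⟩ := hpowc h
    have h1 := hclaim2 g hg rg hrg
    have h2 := hclaim2 h hh rh hrh
    have h3 : (g * h) * c * (g * h)⁻¹ = c ^ (rg * rh) := by
      calc (g * h) * c * (g * h)⁻¹ = g * (h * c * h⁻¹) * g⁻¹ := by group
        _ = g * c ^ rh * g⁻¹ := by rw [hrh]
        _ = (g * c * g⁻¹) ^ rh := conj_pow.symm
        _ = c ^ (rg * rh) := by rw [hrg, ← pow_mul]
    have h4 := hclaim2 (g * h) hgh (rg * rh) h3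
    have h5 : (rg * rh) % 4 = ((rg % 4) * (rh % 4)) % 4 := Nat.mul_mod rg rh 4
    rw [h1, h2] at h5
    omega
  have hidx : A.index = 2 := by
    rw [Subgroup.index_eq_two_iff]
    refine ⟨x, fun b => ?_⟩
    by_cases hb : b ∈ A
    · refine Or.inr ⟨hb, fun h => hxA ?_⟩
      have h1 : x = b⁻¹ * (b * x) := by group
      rw [h1]
      exact A.mul_mem (A.inv_mem hb) h
    · exact Or.inl ⟨hxx b x hb hxA, hb⟩
  have hcardP : Nat.card P = 2 ^ n := by
    have h := Subgroup.card_mul_index A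
    rw [hidx, hcard] at h
    rw [← h, ← pow_succ]
    congr 1
    omega
  obtain ⟨r, hr⟩ := hpowc x
  obtain ⟨s, hs⟩ : ∃ s : ℕ, x * x = c ^ s := by
    have h1 : x * x ∈ Subgroup.zpowers c := by
      rw [← hAeq]
      exact hxx x x hxA hxA
    rw [← mem_powers_iff_mem_zpowers] at h1
    obtain ⟨s, hs⟩ := (Submonoid.mem_powers_iff _ _).mp h1
    exact ⟨s, hs.symm⟩
  have hne : x * c ≠ c * x := fun h => hxA (hmemA x h)
  obtain ⟨u, hu, halt⟩ := cyc2_core n hn3 c x r s hordc hr hs hne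
  obtain ⟨b, hb⟩ : ∃ b, b = u * x := ⟨_, rfl⟩
  rw [← hb] at halt
  have huA : u ∈ A := by
    rw [hAeq]
    exact hu
  have hucomm : Commute u c := by
    obtain ⟨k, hk⟩ := Subgroup.mem_zpowers_iff.mp hu
    rw [← hk]
    exact (Commute.refl c).zpow_left k
  have hbconj : b * c * b⁻¹ = c ^ r := by
    have hucr : Commute u (c ^ r) := hucomm.pow_right r
    rw [hb]
    calc (u * x) * c * (u * x)⁻¹ = u * (x * c * x⁻¹) * u⁻¹ := by group
      _ = u * c ^ r * u⁻¹ := by rw [hr]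
      _ = c ^ r * u * u⁻¹ := by rw [hucr.eq]
      _ = c ^ r := by group
  have hbA : b ∉ A := by
    intro hmem
    apply hxA
    have h3 : x = u⁻¹ * b := by
      rw [hb]
      group
    rw [h3]
    exact A.mul_mem (A.inv_mem huA) hmem
  have hbn : b ∉ Subgroup.zpowers c := by
    rw [← hAeq]
    exact hbA
  have hpow : c ^ (2 ^ (n - 1)) = 1 := by
    rw [← hordc]
    exact pow_orderOf_eq_one c
  rcases halt with ⟨hb2, hcr⟩ | ⟨hb2, hcr⟩ | ⟨h4, hb2, hcr⟩ | ⟨h4, hb2, hcr⟩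
  · -- dihedral
    right; left
    have hconj : b * c * b⁻¹ = c⁻¹ := hbconj.trans hcr
    have hbb : b * b = 1 := (pow_two b).symm.trans hb2
    have h4 : 4 ≤ n := by
      by_contra hlt
      have hn3' : n = 3 := by omega
      have e4 : 2 ^ (n - 1) = 4 :=
        (congrArg (fun k => 2 ^ k) (by omega : n - 1 = 2)).trans (by norm_num)
      have e8 : 2 ^ n = 8 := (congrArg (fun k => 2 ^ k) hn3').trans (by norm_num)
      have horc4 : orderOf c = 4 := hordc.trans e4
      have hc4 : c ^ 4 = 1 := by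
        rw [← horc4]
        exact pow_orderOf_eq_one c
      have hz2 : (c ^ 2) ^ 2 = 1 := by
        rw [← pow_mul]
        exact hc4
      have hz1 : c ^ 2 ≠ 1 := by
        intro h
        have h1 := orderOf_dvd_of_pow_eq_one h
        rw [horc4] at h1
        omega
      have hbZ : b ∉ Subgroup.zpowers (c ^ 2) := by
        intro h
        apply hbn
        obtain ⟨k, hk⟩ := Subgroup.mem_zpowers_iff.mp h
        rw [← hk]
        exact Subgroup.zpow_mem _ (Subgroup.pow_mem _ (Subgroup.mem_zpowers c) 2) k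
      have hZn : (Subgroup.zpowers (c ^ 2)).Normal := cnas_zpowers_pow_normal c hpowc 2
      have hTcard := cnas_four_card (c ^ 2) b hZn hz2 hz1 hb2 hbZ
      have hTidx : (Subgroup.zpowers (c ^ 2) ⊔ Subgroup.zpowers b : Subgroup P).index = 2 := by
        have h1 := Subgroup.card_mul_index
          (Subgroup.zpowers (c ^ 2) ⊔ Subgroup.zpowers b : Subgroup P)
        rw [hTcard, hcardP, e8] at h1
        omega
      exact cnas_four_contra hn (c ^ 2) b hZn hz2 hz1 hb2 hbZ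
        (Subgroup.normal_of_index_eq_two hTidx)
    refine ⟨2 ^ (n - 1), ?_, ?_⟩
    · have h1 : 2 ^ 3 ≤ 2 ^ (n - 1) := Nat.pow_le_pow_right (by norm_num) (by omega)
      exact le_trans (by norm_num) h1
    · have hinj := Cfsg.Agent.Helper8.dihLift_injective (2 ^ (n - 1)) c hpow b hbb hconj
        hordc hbn
      have hbij : Function.Bijective
          (Cfsg.Agent.Helper8.dihLift (2 ^ (n - 1)) c hpow b hbb hconj) := by
        rw [Nat.bijective_iff_injective_and_card]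
        refine ⟨hinj, ?_⟩
        rw [DihedralGroup.nat_card, hcardP, ← pow_succ']
        congr 1
        omega
      exact ⟨(MulEquiv.ofBijective _ hbij).symm⟩
  · -- quaternion
    left
    refine ⟨2 ^ (n - 3 + 1), ?_⟩
    have hconj : b * c * b⁻¹ = c⁻¹ := hbconj.trans hcr
    have e1 : n - 1 = (n - 3 + 1) + 1 := by omega
    have e2 : n - 2 = n - 3 + 1 := by omega
    have hpow' : c ^ (2 * 2 ^ (n - 3 + 1)) = 1 := by
      rw [← pow_succ', ← e1]
      exact hpow
    have hbb : b * b = c ^ (2 ^ (n - 3 + 1)) := by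
      rw [← e2]
      exact (pow_two b).symm.trans hb2
    have hoa' : orderOf c = 2 * 2 ^ (n - 3 + 1) := by
      rw [← pow_succ', ← e1]
      exact hordc
    have hinj := Cfsg.Agent.Helper8.quatLift_injective (2 ^ (n - 3 + 1)) c hpow' b hbb hconj
      hoa' hbn
    have hbij : Function.Bijective
        (Cfsg.Agent.Helper8.quatLift (2 ^ (n - 3 + 1)) c hpow' b hbb hconj) := by
      rw [Nat.bijective_iff_injective_and_card]
      refine ⟨hinj, ?_⟩
      have e4 : 2 ^ n = 2 ^ (n - 3 + 1) * 2 ^ 2 := by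
        rw [← pow_add]
        congr 1
        omega
      rw [Nat.card_eq_fintype_card, QuaternionGroup.card, hcardP, e4]
      ring
    exact ⟨(MulEquiv.ofBijective _ hbij).symm⟩
  · -- modular: excluded
    exfalso
    have h1 := hclaim2 x hxA r hr
    have h2 : r ≡ 1 + 2 ^ (n - 2) [MOD 2 ^ (n - 1)] := (hpe _ _).mp hcr
    have h3 : r % 4 = (1 + 2 ^ (n - 2)) % 4 := Nat.ModEq.of_dvd h4dvd h2
    have hH : 2 ^ (n - 2) = 4 * 2 ^ (n - 4) := by
      rw [show n - 2 = 2 + (n - 4) by omega, pow_add]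
      norm_num
    rw [hH] at h3
    omega
  · -- semidihedral
    right; right
    unfold Cfsg.IsQuasiDihedral
    refine ⟨n - 1, by omega, ?_, c, b, hordc, ?_, ?_⟩
    · rw [hcardP]
      congr 1
      omega
    · apply orderOf_eq_prime hb2
      intro hb1
      apply hbA
      rw [hb1]
      exact A.one_mem
    · have e2 : n - 1 - 1 = n - 2 := by omega
      rw [e2]
      exact hbconj.trans hcr

/-- A `p`-group in which every normal abelian subgroup is cyclic, but which has a non-cyclic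
abelian subgroup, is a `2`-group of maximal class. -/
theorem cnas_main {P : Type*} [Group P] [Finite P] (p : ℕ) [Fact p.Prime]
    (hP : IsPGroup p P) (hn : ∀ A : Subgroup P, A.Normal → IsMulCommutative A → IsCyclic A)
    (hm : ∃ B : Subgroup P, IsMulCommutative B ∧ ¬ IsCyclic B) :
    p = 2 ∧ ((∃ n : ℕ, Nonempty (P ≃* QuaternionGroup n)) ∨
      (∃ n : ℕ, 8 ≤ n ∧ Nonempty (P ≃* DihedralGroup n)) ∨ Cfsg.IsQuasiDihedral P) := by
  haveI : Group.IsNilpotent P := hP.isNilpotent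
  have hbotc : IsMulCommutative (⊥ : Subgroup P) :=
    ⟨⟨fun a b => Subtype.ext (by
      have ha := Subgroup.mem_bot.mp a.2
      have hb := Subgroup.mem_bot.mp b.2
      simp [ha, hb])⟩⟩
  obtain ⟨A, -, hAn, hAc, -, hmax'⟩ := Helper24.exists_maximal_normal_abelian_exponent 0
    (⊥ : Subgroup P) Subgroup.normal_bot hbotc (fun a _ => pow_zero a)
  have hmax : ∀ B : Subgroup P, B.Normal → IsMulCommutative B → A ≤ B → B = A :=
    fun B h1 h2 h3 => hmax' B h1 h2 (fun b _ => pow_zero b) h3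
  haveI := hAn
  have hAcyc : IsCyclic A := hn A hAn hAc
  have hCA : Subgroup.centralizer (A : Set P) = A :=
    Helper24.centralizer_eq_of_maximal_normal_abelian A hAc hmax
  obtain ⟨y, hyA⟩ : ∃ y, y ∉ A := by
    by_contra hcon
    push Not at hcon
    obtain ⟨B0, -, hB0⟩ := hm
    apply hB0
    haveI := hAcyc
    exact Subgroup.isCyclic_of_le (fun b _ => hcon b : B0 ≤ A)
  obtain ⟨g0, hg0⟩ := hAcyc.exists_generator
  obtain ⟨c, hc'⟩ : ∃ c : P, c = (g0 : P) := ⟨_, rfl⟩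
  have hcA : c ∈ A := hc' ▸ g0.2
  have hCz : ∀ y ∈ A, y ∈ Subgroup.zpowers c := by
    intro y hy
    obtain ⟨k, hk⟩ := Subgroup.mem_zpowers_iff.mp (hg0 ⟨y, hy⟩)
    refine Subgroup.mem_zpowers_iff.mpr ⟨k, ?_⟩
    have := congrArg Subtype.val hk
    rw [hc']
    simpa using this
  have hAeq : A = Subgroup.zpowers c :=
    le_antisymm hCz (by rw [Subgroup.zpowers_le]; exact hcA)
  have hpowc : ∀ g : P, ∃ r : ℕ, g * c * g⁻¹ = c ^ r := by
    intro g
    have h1 : g * c * g⁻¹ ∈ Subgroup.zpowers c := hCz _ (hAn.conj_mem c hcA g)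
    rw [← mem_powers_iff_mem_zpowers] at h1
    obtain ⟨r, hr⟩ := (Submonoid.mem_powers_iff _ _).mp h1
    exact ⟨r, hr.symm⟩
  have hmemA : ∀ g : P, g * c = c * g → g ∈ A := by
    intro g hg
    rw [← hCA, Subgroup.mem_centralizer_iff]
    intro h hh
    obtain ⟨k, hk⟩ := Subgroup.mem_zpowers_iff.mp (hCz h hh)
    rw [← hk]
    have hgc : Commute g c := hg
    exact (hgc.zpow_right k).eq.symm
  have hcomm : ∀ g h : P, ⁅g, h⁆ ∈ A := by
    intro g h
    obtain ⟨a, ha⟩ := hpowc h⁻¹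
    obtain ⟨b, hb⟩ := hpowc g⁻¹
    rw [inv_inv] at ha hb
    have h1 := cnas_comm_fix g h c a b ha hb
    apply hmemA
    exact mul_inv_eq_iff_eq_mul.mp h1
  obtain ⟨j, hjA, hjp⟩ := exists_pow_not_mem_pow_mem hP A y hyA
  have hp2 : p = 2 := by
    by_contra hne
    exact cnas_odd_contra hne hP hn A hAn hAcyc hmax hcomm (y ^ j) hjA hjp
  refine ⟨hp2, ?_⟩
  subst hp2
  exact cnas_two hP hn A c hAeq hmemA hpowc hcomm y hyA

end Cfsg.Agent.Helper11
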