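import Mathlib

set_option autoImplicit false

namespace Cfsg.Agent.Helper11

open Module

universe u v

/-- a set of pairwise commuting involutions of a `d`-dimensional space (char ≠ 2) has at most
`2 ^ d` elements -/
theorem glr_rank {F : Type v} [Field F] (h2 : (2 : F) ≠ 0) (d : ℕ) :
    ∀ (V : Type u) [AddCommGroup V] [Module F V] [FiniteDimensional F V]
      (_ : finrank F V = d) (A : Set (Module.End F V))
      (_ : ∀ a ∈ A, a * a = 1)
      (_ : ∀ a ∈ A, ∀ b ∈ A, a * b = b * a), Finite A ∧ Nat.card A ≤ 2 ^ d := by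
  induction d using Nat.strong_induction_on with
  | _ d ih =>
    intro V _ _ _ hd A hA hcomm
    by_cases hsc : ∀ a ∈ A, a = 1 ∨ a = -1
    · have hsub : A ⊆ ({1, -1} : Set (Module.End F V)) := fun a ha => by
        rcases hsc a ha with h | h <;> simp [h]
      have hfin : Finite A := (Set.Finite.subset (Set.toFinite _) hsub).to_subtype
      refine ⟨hfin, ?_⟩
      rcases Nat.eq_zero_or_pos d with hd0 | hdpos
      · have hsub1 : Subsingleton V := by
          rw [hd0] at hd
          exact finrank_zero_iff.mp hd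
        have hsA : Subsingleton A :=
          ⟨fun a b => Subtype.ext (LinearMap.ext fun v => Subsingleton.elim _ _)⟩
        rw [hd0]
        exact Finite.card_le_one_iff_subsingleton.mpr hsA
      · calc Nat.card A ≤ Nat.card ({1, -1} : Set (Module.End F V)) :=
              Nat.card_mono (Set.toFinite _) hsub
          _ ≤ 2 := by
              rw [Nat.card_coe_set_eq]
              exact le_trans (Set.ncard_insert_le _ _) (by rw [Set.ncard_singleton])
          _ = 2 ^ 1 := (pow_one 2).symm
          _ ≤ 2 ^ d := Nat.pow_le_pow_right (by norm_num) hdpos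
    · push Not at hsc
      obtain ⟨a₀, ha₀, hne1, hne2⟩ := hsc
      have ha₀2 : ∀ v, a₀ (a₀ v) = v := fun v =>
        congrArg (fun f : Module.End F V => f v) (hA a₀ ha₀)
      obtain ⟨P, hP⟩ : ∃ P : Submodule F V, ∀ v, v ∈ P ↔ a₀ v = v := by
        refine ⟨LinearMap.ker (a₀ - 1), fun v => ?_⟩
        rw [LinearMap.mem_ker, LinearMap.sub_apply, Module.End.one_apply, sub_eq_zero]
      obtain ⟨M, hM⟩ : ∃ M : Submodule F V, ∀ v, v ∈ M ↔ a₀ v = -v := by
        refine ⟨LinearMap.ker (a₀ + 1), fun v => ?_⟩
        rw [LinearMap.mem_ker, LinearMap.add_apply, Module.End.one_apply, add_eq_zero_iff_eq_neg]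
      have hsup : P ⊔ M = ⊤ := by
        rw [eq_top_iff]
        intro v _
        have hv : v = (2 : F)⁻¹ • (v + a₀ v) + (2 : F)⁻¹ • (v - a₀ v) := by
          rw [← smul_add, add_add_sub_cancel, ← two_smul F v, smul_smul, inv_mul_cancel₀ h2,
            one_smul]
        rw [hv]
        refine Submodule.add_mem_sup (Submodule.smul_mem _ _ ?_) (Submodule.smul_mem _ _ ?_)
        · rw [hP, map_add, ha₀2, add_comm]
        · rw [hM, map_sub, ha₀2, neg_sub]
      have hinf : P ⊓ M = ⊥ := by
        rw [eq_bot_iff]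
        intro v hv
        have h1 := (hP v).mp hv.1
        have h3 := (hM v).mp hv.2
        rw [Submodule.mem_bot]
        have h5 : v = -v := h1.symm.trans h3
        have h6 : v + v = 0 := by
          rw [eq_neg_iff_add_eq_zero] at h5
          exact h5
        have h4 : (2 : F) • v = 0 := by
          rw [two_smul]
          exact h6
        exact (smul_eq_zero.mp h4).resolve_left h2
      have hdim : finrank F P + finrank F M = d := by
        have h := Submodule.finrank_sup_add_finrank_inf_eq P M
        rw [hsup, hinf, finrank_top, finrank_bot, add_zero, hd] at h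
        exact h.symm
      have hPne : P ≠ ⊤ := by
        intro h
        apply hne1
        apply LinearMap.ext
        intro v
        exact (hP v).mp (h ▸ Submodule.mem_top)
      have hMne : M ≠ ⊤ := by
        intro h
        apply hne2
        apply LinearMap.ext
        intro v
        rw [LinearMap.neg_apply, Module.End.one_apply]
        exact (hM v).mp (h ▸ Submodule.mem_top)
      have hPlt : finrank F P < d := by
        rw [← hd]
        exact Submodule.finrank_lt hPne
      have hMlt : finrank F M < d := by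
        rw [← hd]
        exact Submodule.finrank_lt hMne
      have hinvP : ∀ a ∈ A, ∀ v ∈ P, a v ∈ P := by
        intro a ha v hv
        rw [hP] at hv ⊢
        have h1 : a₀ (a v) = a (a₀ v) :=
          congrArg (fun f : Module.End F V => f v) (hcomm a₀ ha₀ a ha)
        rw [hv] at h1
        exact h1
      have hinvM : ∀ a ∈ A, ∀ v ∈ M, a v ∈ M := by
        intro a ha v hv
        rw [hM] at hv ⊢
        have h1 : a₀ (a v) = a (a₀ v) :=
          congrArg (fun f : Module.End F V => f v) (hcomm a₀ ha₀ a ha)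
        rw [hv, map_neg] at h1
        exact h1
      obtain ⟨AP, hAPdef⟩ : ∃ AP : Set (Module.End F P),
          AP = Set.range (fun a : A => (a.1).restrict (hinvP a.1 a.2)) := ⟨_, rfl⟩
      obtain ⟨AM, hAMdef⟩ : ∃ AM : Set (Module.End F M),
          AM = Set.range (fun a : A => (a.1).restrict (hinvM a.1 a.2)) := ⟨_, rfl⟩
      have hAP : ∀ b ∈ AP, b * b = 1 := by
        rw [hAPdef]
        rintro _ ⟨a, rfl⟩
        apply LinearMap.ext
        intro v
        apply Subtype.ext
        exact congrArg (fun f : Module.End F V => f v.1) (hA a.1 a.2)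
      have hAM : ∀ b ∈ AM, b * b = 1 := by
        rw [hAMdef]
        rintro _ ⟨a, rfl⟩
        apply LinearMap.ext
        intro v
        apply Subtype.ext
        exact congrArg (fun f : Module.End F V => f v.1) (hA a.1 a.2)
      have hcommP : ∀ b ∈ AP, ∀ c ∈ AP, b * c = c * b := by
        rw [hAPdef]
        rintro _ ⟨a, rfl⟩ _ ⟨b, rfl⟩
        apply LinearMap.ext
        intro v
        apply Subtype.ext
        exact congrArg (fun f : Module.End F V => f v.1) (hcomm a.1 a.2 b.1 b.2)
      have hcommM : ∀ b ∈ AM, ∀ c ∈ AM, b * c = c * b := by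
        rw [hAMdef]
        rintro _ ⟨a, rfl⟩ _ ⟨b, rfl⟩
        apply LinearMap.ext
        intro v
        apply Subtype.ext
        exact congrArg (fun f : Module.End F V => f v.1) (hcomm a.1 a.2 b.1 b.2)
      obtain ⟨hfP, hcP⟩ := ih (finrank F P) hPlt P rfl AP hAP hcommP
      obtain ⟨hfM, hcM⟩ := ih (finrank F M) hMlt M rfl AM hAM hcommM
      let f : A → AP × AM := fun a =>
        (⟨(a.1).restrict (hinvP a.1 a.2), hAPdef ▸ ⟨a, rfl⟩⟩,
          ⟨(a.1).restrict (hinvM a.1 a.2), hAMdef ▸ ⟨a, rfl⟩⟩)
      have hf : Function.Injective f := by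
        intro a b hab
        apply Subtype.ext
        apply LinearMap.ext
        intro v
        have hv : v ∈ P ⊔ M := hsup ▸ Submodule.mem_top
        obtain ⟨p, hp, m, hm, rfl⟩ := Submodule.mem_sup.mp hv
        have h1 : a.1 p = b.1 p :=
          congrArg (fun z : AP × AM => ((z.1.1 ⟨p, hp⟩ : P) : V)) hab
        have h3 : a.1 m = b.1 m :=
          congrArg (fun z : AP × AM => ((z.2.1 ⟨m, hm⟩ : M) : V)) hab
        rw [map_add, map_add, h1, h3]
      have hfinA : Finite A := Finite.of_injective f hf
      refine ⟨hfinA, ?_⟩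
      calc Nat.card A ≤ Nat.card (AP × AM) := Nat.card_le_card_of_injective f hf
        _ = Nat.card AP * Nat.card AM := Nat.card_prod _ _
        _ ≤ 2 ^ finrank F P * 2 ^ finrank F M := Nat.mul_le_mul hcP hcM
        _ = 2 ^ (finrank F P + finrank F M) := (pow_add _ _ _).symm
        _ = 2 ^ d := by rw [hdim]

/-- elementary abelian 2-subsets of `GL_n(F)` have at most `2 ^ n` elements -/
theorem glr_gl {F : Type u} [Field F] (h2 : (2 : F) ≠ 0) (n : ℕ)
    (E : Set (Matrix.GeneralLinearGroup (Fin n) F)) (hsq : ∀ e ∈ E, e * e = 1)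
    (hcomm : ∀ a ∈ E, ∀ b ∈ E, a * b = b * a) : Finite E ∧ Nat.card E ≤ 2 ^ n := by
  classical
  have hfr : finrank F (Fin n → F) = n := by
    rw [Module.finrank_fintype_fun_eq_card, Fintype.card_fin]
  obtain ⟨A, hAdef⟩ : ∃ A : Set (Module.End F (Fin n → F)),
      A = Set.range (fun e : E => Matrix.toLin'
        ((e.1 : Matrix.GeneralLinearGroup (Fin n) F) : Matrix (Fin n) (Fin n) F)) :=
    ⟨_, rfl⟩
  have hmul : ∀ a b : Matrix.GeneralLinearGroup (Fin n) F,
      Matrix.toLin' (a : Matrix (Fin n) (Fin n) F) * Matrix.toLin' (b : Matrix (Fin n) (Fin n) F)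
      = Matrix.toLin' ((a * b : Matrix.GeneralLinearGroup (Fin n) F) :
          Matrix (Fin n) (Fin n) F) := by
    intro a b
    rw [Module.End.mul_eq_comp, ← Matrix.toLin'_mul]
    rfl
  have hA : ∀ a ∈ A, a * a = 1 := by
    rw [hAdef]
    rintro _ ⟨e, rfl⟩
    show Matrix.toLin' _ * Matrix.toLin' _ = 1
    rw [hmul, hsq e.1 e.2]
    exact Matrix.toLin'_one
  have hcommA : ∀ a ∈ A, ∀ b ∈ A, a * b = b * a := by
    rw [hAdef]
    rintro _ ⟨a, rfl⟩ _ ⟨b, rfl⟩
    show Matrix.toLin' _ * Matrix.toLin' _ = Matrix.toLin' _ * Matrix.toLin' _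
    rw [hmul, hmul, hcomm a.1 a.2 b.1 b.2]
  obtain ⟨hfin, hcard⟩ := glr_rank h2 n (Fin n → F) hfr A hA hcommA
  let g : E → A := fun e => ⟨Matrix.toLin'
    ((e.1 : Matrix.GeneralLinearGroup (Fin n) F) : Matrix (Fin n) (Fin n) F),
    hAdef ▸ ⟨e, rfl⟩⟩
  have hg : Function.Injective g := by
    intro a b hab
    apply Subtype.ext
    apply Units.ext
    exact Matrix.toLin'.injective (congrArg Subtype.val hab)
  have hfinE : Finite E := Finite.of_injective g hg
  exact ⟨hfinE, le_trans (Nat.card_le_card_of_injective g hg) hcard⟩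

end Cfsg.Agent.Helper11
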