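import Mathlib
import Cfsg.Prelude
import Cfsg.Agent.Lead.PGroup

set_option autoImplicit false

namespace Cfsg.Agent.Helper11

universe u

/-- The lower central series strictly decreases until it reaches `⊥`. -/
theorem lcs_strict {Q : Type u} [Group Q] [Group.IsNilpotent Q] (k : ℕ)
    (h : (⊤ : Subgroup Q).lowerCentralSeries k ≠ ⊥) :
    (⊤ : Subgroup Q).lowerCentralSeries (k + 1) < (⊤ : Subgroup Q).lowerCentralSeries k := by
  refine lt_of_le_of_ne (Subgroup.lowerCentralSeries_antitone _ (Nat.le_succ k)) ?_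
  intro heq
  apply h
  have hall : ∀ j, (⊤ : Subgroup Q).lowerCentralSeries (k + j)
      = (⊤ : Subgroup Q).lowerCentralSeries k := by
    intro j
    induction j with
    | zero => rfl
    | succ j ih =>
      calc (⊤ : Subgroup Q).lowerCentralSeries (k + (j + 1))
          = ⁅(⊤ : Subgroup Q).lowerCentralSeries (k + j), ⊤⁆ := rfl
        _ = ⁅(⊤ : Subgroup Q).lowerCentralSeries k, ⊤⁆ := by rw [ih]
        _ = (⊤ : Subgroup Q).lowerCentralSeries (k + 1) := rfl
        _ = (⊤ : Subgroup Q).lowerCentralSeries k := heq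
  have h1 : (⊤ : Subgroup Q).lowerCentralSeries (k + Group.nilpotencyClass Q)
      ≤ (⊤ : Subgroup Q).lowerCentralSeries (Group.nilpotencyClass Q) :=
    Subgroup.lowerCentralSeries_antitone _ (Nat.le_add_left _ _)
  rw [Subgroup.lowerCentralSeries_nilpotencyClass, hall] at h1
  exact le_bot_iff.1 h1

/-- A finite `p`-group with cyclic abelianization has trivial commutator subgroup. -/
theorem comm_bot_of_cyclic_ab {Q : Type u} [Group Q] [Finite Q] {p : ℕ} [Fact p.Prime]
    (hQ : IsPGroup p Q) (hc : IsCyclic (Q ⧸ commutator Q)) : commutator Q = ⊥ := by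
  haveI := hc
  obtain ⟨x, hx⟩ := IsCyclic.exists_generator (α := Q ⧸ commutator Q)
  obtain ⟨g, rfl⟩ := QuotientGroup.mk_surjective x
  have htop : Subgroup.zpowers g ⊔ frattini Q = ⊤ := by
    rw [eq_top_iff]
    intro h _
    obtain ⟨k, hk⟩ := Subgroup.mem_zpowers_iff.1 (hx (h : Q ⧸ commutator Q))
    have h1 : (g ^ k)⁻¹ * h ∈ commutator Q := by
      apply QuotientGroup.eq.1
      rw [QuotientGroup.mk_zpow]
      exact hk
    have h2 : h = g ^ k * ((g ^ k)⁻¹ * h) := by group
    rw [h2]
    exact Subgroup.mul_mem_sup (Subgroup.zpow_mem_zpowers g k)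
      (Cfsg.Agent.Lead.commutator_le_frattini hQ h1)
  have hz : Subgroup.zpowers g = ⊤ := frattini_nongenerating htop
  rw [commutator_def, eq_bot_iff, Subgroup.commutator_le]
  intro a _ b _
  rw [Subgroup.mem_bot, commutatorElement_eq_one_iff_commute]
  have ha : a ∈ Subgroup.zpowers g := by
    rw [hz]
    exact Subgroup.mem_top a
  have hb : b ∈ Subgroup.zpowers g := by
    rw [hz]
    exact Subgroup.mem_top b
  obtain ⟨i, rfl⟩ := Subgroup.mem_zpowers_iff.1 ha
  obtain ⟨j, rfl⟩ := Subgroup.mem_zpowers_iff.1 hb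
  exact Commute.zpow_zpow_self g i j

theorem comm_card_le {Q : Type u} [Group Q] [Finite Q] {p : ℕ} [Fact p.Prime]
    (hQ : IsPGroup p Q) (hne : commutator Q ≠ ⊥) :
    Nat.card (commutator Q) * p ^ 2 ≤ Nat.card Q := by
  have hpr : p.Prime := Fact.out
  obtain ⟨k, hk⟩ := IsPGroup.iff_card.1 (hQ.to_quotient (commutator Q))
  have h1 := Subgroup.card_eq_card_quotient_mul_card_subgroup (commutator Q)
  have hk2 : 2 ≤ k := by
    by_contra hlt
    apply hne
    apply comm_bot_of_cyclic_ab hQ
    have hk' : k = 0 ∨ k = 1 := by omega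
    rcases hk' with rfl | rfl
    · haveI : Subsingleton (Q ⧸ commutator Q) :=
        (Nat.card_eq_one_iff_unique.1 (by rw [hk, pow_zero])).1
      exact isCyclic_of_subsingleton
    · exact isCyclic_of_prime_card (p := p) (by rw [hk, pow_one])
  calc Nat.card (commutator Q) * p ^ 2 ≤ Nat.card (commutator Q) * p ^ k :=
        Nat.mul_le_mul_left _ (Nat.pow_le_pow_right hpr.pos hk2)
    _ = p ^ k * Nat.card (commutator Q) := mul_comm _ _
    _ = Nat.card Q := by rw [h1, hk]

theorem card_mul_p_le_of_lt {Q : Type u} [Group Q] [Finite Q] {p : ℕ} [Fact p.Prime]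
    (hQ : IsPGroup p Q) {H K : Subgroup Q} (h : H < K) : Nat.card H * p ≤ Nat.card K := by
  have hpr : p.Prime := Fact.out
  obtain ⟨a, ha⟩ := IsPGroup.iff_card.1 (hQ.to_subgroup H)
  obtain ⟨b, hb⟩ := IsPGroup.iff_card.1 (hQ.to_subgroup K)
  have hle : Nat.card H ≤ Nat.card K :=
    Nat.le_of_dvd Nat.card_pos (Subgroup.card_dvd_of_le h.le)
  have hne : Nat.card H ≠ Nat.card K :=
    fun he => h.ne (Subgroup.eq_of_le_of_card_ge h.le (le_of_eq he.symm))
  rw [ha, hb] at hle hne ⊢
  have hab : a < b := by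
    rcases Nat.lt_or_ge a b with h1 | h1
    · exact h1
    · exfalso
      have h2 : p ^ b ≤ p ^ a := Nat.pow_le_pow_right hpr.pos h1
      exact hne (le_antisymm hle h2)
  calc p ^ a * p = p ^ (a + 1) := (pow_succ p a).symm
    _ ≤ p ^ b := Nat.pow_le_pow_right hpr.pos hab

theorem lcs_card_upper {Q : Type u} [Group Q] [Finite Q] {p : ℕ} [Fact p.Prime]
    (hQ : IsPGroup p Q) :
    ∀ i : ℕ, (⊤ : Subgroup Q).lowerCentralSeries (i + 1) = ⊥ ∨
      Nat.card ((⊤ : Subgroup Q).lowerCentralSeries (i + 1)) * p ^ (i + 2) ≤ Nat.card Q := by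
  haveI : Group.IsNilpotent Q := hQ.isNilpotent
  intro i
  induction i with
  | zero =>
    by_cases h : commutator Q = ⊥
    · exact Or.inl h
    · exact Or.inr (comm_card_le hQ h)
  | succ i ih =>
    have hle : (⊤ : Subgroup Q).lowerCentralSeries (i + 1 + 1)
        ≤ (⊤ : Subgroup Q).lowerCentralSeries (i + 1) :=
      Subgroup.lowerCentralSeries_antitone _ (Nat.le_succ (i + 1))
    by_cases hb : (⊤ : Subgroup Q).lowerCentralSeries (i + 1) = ⊥
    · left
      rw [hb] at hle
      exact le_bot_iff.1 hle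
    · rcases ih with h | h
      · exact absurd h hb
      · right
        have hlt := lcs_strict (i + 1) hb
        have h2 := card_mul_p_le_of_lt hQ hlt
        calc Nat.card ((⊤ : Subgroup Q).lowerCentralSeries (i + 1 + 1)) * p ^ (i + 1 + 2)
            = (Nat.card ((⊤ : Subgroup Q).lowerCentralSeries (i + 1 + 1)) * p) * p ^ (i + 2) := by
              ring
          _ ≤ Nat.card ((⊤ : Subgroup Q).lowerCentralSeries (i + 1)) * p ^ (i + 2) :=
              Nat.mul_le_mul_right _ h2
          _ ≤ Nat.card Q := h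

theorem lcs_card_lower {Q : Type u} [Group Q] [Finite Q] {p : ℕ} [Fact p.Prime]
    (hQ : IsPGroup p Q) (j : ℕ) (hj : (⊤ : Subgroup Q).lowerCentralSeries j ≠ ⊥) :
    ∀ d : ℕ, d ≤ j →
      p ^ (d + 1) ≤ Nat.card ((⊤ : Subgroup Q).lowerCentralSeries (j - d)) := by
  have hpr : p.Prime := Fact.out
  haveI : Group.IsNilpotent Q := hQ.isNilpotent
  intro d
  induction d with
  | zero =>
    intro _
    obtain ⟨a, ha⟩ :=
      IsPGroup.iff_card.1 (hQ.to_subgroup ((⊤ : Subgroup Q).lowerCentralSeries j))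
    have ha0 : a ≠ 0 := by
      intro h0
      rw [h0, pow_zero] at ha
      exact hj (Subgroup.eq_bot_of_card_eq _ ha)
    rw [Nat.sub_zero, ha]
    exact Nat.pow_le_pow_right hpr.pos (by omega)
  | succ d ih =>
    intro hd
    have h1 := ih (by omega)
    have hne : (⊤ : Subgroup Q).lowerCentralSeries (j - (d + 1)) ≠ ⊥ := by
      intro hb
      have hle : (⊤ : Subgroup Q).lowerCentralSeries j
          ≤ (⊤ : Subgroup Q).lowerCentralSeries (j - (d + 1)) :=
        Subgroup.lowerCentralSeries_antitone _ (Nat.sub_le _ _)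
      rw [hb] at hle
      exact hj (le_bot_iff.1 hle)
    have hlt := lcs_strict (j - (d + 1)) hne
    have hidx : j - (d + 1) + 1 = j - d := by omega
    rw [hidx] at hlt
    have h2 := card_mul_p_le_of_lt hQ hlt
    calc p ^ (d + 1 + 1) = p ^ (d + 1) * p := pow_succ p (d + 1)
      _ ≤ Nat.card ((⊤ : Subgroup Q).lowerCentralSeries (j - d)) * p :=
          Nat.mul_le_mul_right _ h1
      _ ≤ Nat.card ((⊤ : Subgroup Q).lowerCentralSeries (j - (d + 1))) := h2

/-- A group of order `p ^ r`, `r ≥ 2`, has class at most `r - 1`. -/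
theorem lcs_bot_of_card {Q : Type u} [Group Q] [Finite Q] {p : ℕ} [Fact p.Prime] (r : ℕ)
    (hr : 2 ≤ r) (hc : Nat.card Q = p ^ r) :
    (⊤ : Subgroup Q).lowerCentralSeries (r - 1) = ⊥ := by
  have hpr : p.Prime := Fact.out
  have hQ : IsPGroup p Q := IsPGroup.of_card hc
  obtain ⟨i, rfl⟩ : ∃ i, r = i + 2 := ⟨r - 2, by omega⟩
  have e : i + 2 - 1 = i + 1 := by omega
  rw [e]
  rcases lcs_card_upper hQ i with h | h
  · exact h
  · rw [hc] at h
    have hpos : 0 < p ^ (i + 2) := pow_pos hpr.pos _
    have h1 : Nat.card ((⊤ : Subgroup Q).lowerCentralSeries (i + 1)) ≤ 1 :=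
      Nat.le_of_mul_le_mul_right (by rw [one_mul]; exact h) hpos
    have h2 : Nat.card ((⊤ : Subgroup Q).lowerCentralSeries (i + 1)) = 1 :=
      le_antisymm h1 Nat.card_pos
    exact Subgroup.eq_bot_of_card_eq _ h2

theorem sq_sub_one_aux (p : ℕ) (hp : 1 ≤ p) : (p + 1) * (p - 1) = p ^ 2 - 1 := by
  obtain ⟨q, rfl⟩ : ∃ q, p = q + 1 := ⟨p - 1, by omega⟩
  have h1 : (q + 1) ^ 2 = (q + 1 + 1) * q + 1 := by ring
  rw [h1, Nat.add_sub_cancel, Nat.add_sub_cancel]

/-- A group of order `p ^ 2` and exponent `p` has exactly `p + 1` subgroups of index `p`. -/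
theorem card_index_p_of_sq {A : Type u} [Group A] [Finite A] {p : ℕ} [Fact p.Prime]
    (hA : Nat.card A = p ^ 2) (hexp : ∀ x : A, x ^ p = 1) :
    Nat.card {K : Subgroup A // K.index = p} = p + 1 := by
  classical
  have hpr : p.Prime := Fact.out
  haveI : Fintype A := Fintype.ofFinite A
  haveI : Fintype (Subgroup A) := Fintype.ofFinite _
  have hidx : ∀ K : Subgroup A, K.index = p ↔ Nat.card K = p := by
    intro K
    have h1 := Subgroup.card_mul_index K
    rw [hA] at h1
    constructor
    · intro h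
      rw [h, sq] at h1
      exact Nat.eq_of_mul_eq_mul_right hpr.pos h1
    · intro h
      rw [h, sq] at h1
      exact Nat.eq_of_mul_eq_mul_left hpr.pos h1
  have hz : ∀ x : A, x ≠ 1 → Nat.card (Subgroup.zpowers x) = p := by
    intro x hx
    rw [Nat.card_zpowers]
    have h1 : orderOf x ∣ p := orderOf_dvd_of_pow_eq_one (hexp x)
    rcases (Nat.dvd_prime hpr).1 h1 with h2 | h2
    · exact absurd (orderOf_eq_one_iff.1 h2) hx
    · exact h2
  obtain ⟨s, hs⟩ : ∃ s : Finset A, s = Finset.univ.erase (1 : A) := ⟨_, rfl⟩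
  obtain ⟨t, ht⟩ : ∃ t : Finset (Subgroup A),
      t = Finset.univ.filter (fun K : Subgroup A => K.index = p) := ⟨_, rfl⟩
  have hmaps : Set.MapsTo (fun x : A => Subgroup.zpowers x) ↑s ↑t := by
    intro x hx
    rw [Finset.mem_coe, hs, Finset.mem_erase] at hx
    rw [Finset.mem_coe, ht, Finset.mem_filter]
    exact ⟨Finset.mem_univ _, (hidx _).2 (hz x hx.1)⟩
  have hfib : ∀ K ∈ t, (s.filter (fun x => Subgroup.zpowers x = K)).card = p - 1 := by
    intro K hK
    rw [ht, Finset.mem_filter] at hK
    have hKc : Nat.card K = p := (hidx K).1 hK.2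
    have heq : s.filter (fun x => Subgroup.zpowers x = K)
        = (Finset.univ.filter (fun x => x ∈ K)).erase 1 := by
      ext x
      rw [Finset.mem_filter, hs, Finset.mem_erase, Finset.mem_erase, Finset.mem_filter]
      constructor
      · rintro ⟨⟨hx1, _⟩, hxK⟩
        refine ⟨hx1, Finset.mem_univ _, ?_⟩
        rw [← hxK]
        exact Subgroup.mem_zpowers x
      · rintro ⟨hx1, _, hxK⟩
        refine ⟨⟨hx1, Finset.mem_univ _⟩, ?_⟩
        exact Subgroup.eq_of_le_of_card_ge (Subgroup.zpowers_le.2 hxK)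
          (by rw [hKc, hz x hx1])
    have hcK : (Finset.univ.filter (fun x => x ∈ K)).card = p := by
      rw [← hKc, Nat.card_eq_fintype_card, Fintype.card_subtype]
    rw [heq, Finset.card_erase_of_mem (by
      rw [Finset.mem_filter]
      exact ⟨Finset.mem_univ _, Subgroup.one_mem K⟩), hcK]
  have hcount : s.card = ∑ K ∈ t, (p - 1) :=
    (Finset.card_eq_sum_card_fiberwise hmaps).trans (Finset.sum_congr rfl hfib)
  rw [Finset.sum_const, smul_eq_mul] at hcount
  have hscard : s.card = p ^ 2 - 1 := by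
    rw [hs, Finset.card_erase_of_mem (Finset.mem_univ _), Finset.card_univ,
      ← Nat.card_eq_fintype_card, hA]
  rw [hscard] at hcount
  have htc : t.card = p + 1 := by
    have h2 : 2 ≤ p := hpr.two_le
    have h3 : (p + 1) * (p - 1) = t.card * (p - 1) := by
      rw [← hcount]
      exact sq_sub_one_aux p (by omega)
    exact (Nat.eq_of_mul_eq_mul_right (by omega) h3).symm
  rw [Nat.card_eq_fintype_card, Fintype.card_subtype, ← htc, ht]

/-- If the abelianization has order `p ^ 2` and exponent `p`, there are exactly `p + 1` normal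
subgroups of index `p`. -/
theorem card_normal_index_p {G : Type u} [Group G] [Finite G] {p : ℕ} [Fact p.Prime]
    (hsq : (commutator G).index = p ^ 2) (hexp : ∀ g : G, g ^ p ∈ commutator G) :
    Nat.card {N : Subgroup G // N.Normal ∧ N.index = p} = p + 1 := by
  have hA : Nat.card (G ⧸ commutator G) = p ^ 2 := hsq
  have hexpA : ∀ x : G ⧸ commutator G, x ^ p = 1 := by
    intro x
    obtain ⟨g, rfl⟩ := QuotientGroup.mk_surjective x
    rw [← QuotientGroup.mk_pow]
    exact (QuotientGroup.eq_one_iff _).2 (hexp g)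
  rw [← card_index_p_of_sq hA hexpA]
  have hcommA : ∀ a b : G ⧸ commutator G, a * b = b * a := by
    intro a b
    obtain ⟨x, rfl⟩ := QuotientGroup.mk_surjective a
    obtain ⟨y, rfl⟩ := QuotientGroup.mk_surjective b
    rw [← QuotientGroup.mk_mul, ← QuotientGroup.mk_mul]
    apply QuotientGroup.eq.2
    have h1 : (x * y)⁻¹ * (y * x) = y⁻¹ * x⁻¹ * (y⁻¹)⁻¹ * (x⁻¹)⁻¹ := by
      group
    rw [h1, ← commutatorElement_def]
    exact Subgroup.commutator_mem_commutator (Subgroup.mem_top _) (Subgroup.mem_top _)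
  have hle : ∀ N : Subgroup G, N.Normal → N.index = p → commutator G ≤ N := by
    intro N hN hNi
    haveI := hN
    haveI : IsCyclic (G ⧸ N) := isCyclic_of_prime_card (p := p) hNi
    rw [commutator_def, Subgroup.commutator_le]
    intro a _ b _
    apply (QuotientGroup.eq_one_iff _).1
    rw [commutatorElement_def, QuotientGroup.mk_mul, QuotientGroup.mk_mul, QuotientGroup.mk_mul,
      QuotientGroup.mk_inv, QuotientGroup.mk_inv]
    have hc : (a : G ⧸ N) * (b : G ⧸ N) = (b : G ⧸ N) * (a : G ⧸ N) :=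
      commutative_of_cyclic_center_quotient (MonoidHom.id (G ⧸ N)) (fun u hu => by
        have h1 : u = 1 := MonoidHom.mem_ker.1 hu
        rw [h1]
        exact Subgroup.one_mem _) _ _
    rw [hc]
    group
  refine Nat.card_congr ?_
  exact
    { toFun := fun N => ⟨N.1.map (QuotientGroup.mk' (commutator G)), by
        have h1 : (N.1.map (QuotientGroup.mk' (commutator G))).comap
            (QuotientGroup.mk' (commutator G)) = N.1 :=
          Subgroup.comap_map_eq_self (by
            rw [QuotientGroup.ker_mk']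
            exact hle N.1 N.2.1 N.2.2)
        rw [← Subgroup.index_comap_of_surjective _
          (QuotientGroup.mk'_surjective (commutator G)), h1]
        exact N.2.2⟩
      invFun := fun K => ⟨K.1.comap (QuotientGroup.mk' (commutator G)), by
        refine ⟨?_, ?_⟩
        · have hKn : K.1.Normal := ⟨fun a ha g => by
            rw [hcommA g a, mul_inv_cancel_right]
            exact ha⟩
          exact hKn.comap _
        · rw [Subgroup.index_comap_of_surjective _
            (QuotientGroup.mk'_surjective (commutator G))]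
          exact K.2⟩
      left_inv := fun N => Subtype.ext (Subgroup.comap_map_eq_self (by
        rw [QuotientGroup.ker_mk']
        exact hle N.1 N.2.1 N.2.2))
      right_inv := fun K => Subtype.ext (Subgroup.map_comap_eq_self_of_surjective
        (QuotientGroup.mk'_surjective (commutator G)) K.1) }

end Cfsg.Agent.Helper11
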