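import Mathlib

set_option autoImplicit false

namespace Cfsg.Agent.Helper11

/-- the 2-adic valuation of `n!` -/
def nlv (n : ℕ) : ℕ := padicValNat 2 n.factorial

theorem nlv_two_mul (k : ℕ) : nlv (2 * k) = k + nlv k := by
  unfold nlv
  rw [padicValNat_factorial_mul, add_comm]

theorem nlv_two_mul_add_one (k : ℕ) : nlv (2 * k + 1) = k + nlv k := by
  unfold nlv
  rw [padicValNat_factorial_mul_add k (by norm_num : 1 < 2), padicValNat_factorial_mul, add_comm]

theorem nlv_four (j : ℕ) : nlv (4 * j) = 3 * j + nlv j := by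
  have h : 4 * j = 2 * (2 * j) := by ring
  rw [h, nlv_two_mul, nlv_two_mul]
  ring

theorem nlv_four_one (j : ℕ) : nlv (4 * j + 1) = 3 * j + nlv j := by
  have h : 4 * j + 1 = 2 * (2 * j) + 1 := by ring
  rw [h, nlv_two_mul_add_one, nlv_two_mul]
  ring

theorem nlv_four_two (j : ℕ) : nlv (4 * j + 2) = 3 * j + nlv j + 1 := by
  have h : 4 * j + 2 = 2 * (2 * j + 1) := by ring
  rw [h, nlv_two_mul, nlv_two_mul_add_one]
  ring

theorem nlv_four_three (j : ℕ) : nlv (4 * j + 3) = 3 * j + nlv j + 1 := by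
  have h : 4 * j + 3 = 2 * (2 * j + 1) + 1 := by ring
  rw [h, nlv_two_mul_add_one, nlv_two_mul_add_one]
  ring

theorem nlv_add (a c : ℕ) : nlv a + nlv c ≤ nlv (a + c) := by
  unfold nlv
  have h := Nat.factorial_mul_factorial_dvd_factorial_add a c
  have h1 : 2 ^ (padicValNat 2 a.factorial + padicValNat 2 c.factorial) ∣ (a + c).factorial := by
    refine dvd_trans ?_ h
    rw [pow_add]
    exact Nat.mul_dvd_mul pow_padicValNat_dvd pow_padicValNat_dvd
  exact (padicValNat_dvd_iff_le (Nat.factorial_ne_zero _)).mp h1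

theorem nlv_mono {a c : ℕ} (h : a ≤ c) : nlv a ≤ nlv c := by
  obtain ⟨d, rfl⟩ := Nat.exists_eq_add_of_le h
  have := nlv_add a d
  omega

/-- the maximal order of a nilpotent subgroup of `S_n` -/
def nb (n : ℕ) : ℕ := if n % 4 = 3 then 3 * 2 ^ nlv (n - 3) else 2 ^ nlv n

theorem nb_f0 (k : ℕ) : nb (4 * k) = 2 ^ (3 * k + nlv k) := by
  unfold nb
  rw [if_neg (by omega), nlv_four]

theorem nb_f1 (k : ℕ) : nb (4 * k + 1) = 2 ^ (3 * k + nlv k) := by
  unfold nb
  rw [if_neg (by omega), nlv_four_one]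

theorem nb_f2 (k : ℕ) : nb (4 * k + 2) = 2 * 2 ^ (3 * k + nlv k) := by
  unfold nb
  rw [if_neg (by omega), nlv_four_two, pow_succ, mul_comm]

theorem nb_f3 (k : ℕ) : nb (4 * k + 3) = 3 * 2 ^ (3 * k + nlv k) := by
  unfold nb
  rw [if_pos (by omega), Nat.add_sub_cancel, nlv_four]

theorem nb_f4 (k : ℕ) : nb (4 * k + 4) = 2 ^ (3 * (k + 1) + nlv (k + 1)) := by
  have h : 4 * k + 4 = 4 * (k + 1) := by ring
  rw [h, nb_f0]

theorem nb_f5 (k : ℕ) : nb (4 * k + 5) = 2 ^ (3 * (k + 1) + nlv (k + 1)) := by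
  have h : 4 * k + 5 = 4 * (k + 1) + 1 := by ring
  rw [h, nb_f1]

theorem nb_f6 (k : ℕ) : nb (4 * k + 6) = 2 * 2 ^ (3 * (k + 1) + nlv (k + 1)) := by
  have h : 4 * k + 6 = 4 * (k + 1) + 2 := by ring
  rw [h, nb_f2]

theorem nb_pos (n : ℕ) : 0 < nb n := by
  unfold nb
  split_ifs <;> positivity

theorem nb_ge (n : ℕ) : 2 ^ nlv n ≤ nb n := by
  obtain ⟨j, r, hr, rfl⟩ : ∃ j r, r < 4 ∧ n = 4 * j + r :=
    ⟨n / 4, n % 4, Nat.mod_lt _ (by norm_num), (Nat.div_add_mod n 4).symm⟩
  interval_cases r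
  · rw [add_zero, nb_f0, nlv_four]
  · rw [nb_f1, nlv_four_one]
  · rw [nb_f2, nlv_four_two, pow_succ, mul_comm]
  · rw [nb_f3, nlv_four_three, pow_succ]
    have : 0 < 2 ^ (3 * j + nlv j) := by positivity
    omega

theorem nb_mul_le (a c : ℕ) : nb a * nb c ≤ nb (a + c) := by
  obtain ⟨i, r, hr, rfl⟩ : ∃ i r, r < 4 ∧ a = 4 * i + r :=
    ⟨a / 4, a % 4, Nat.mod_lt _ (by norm_num), (Nat.div_add_mod a 4).symm⟩
  obtain ⟨j, s, hs, rfl⟩ : ∃ j s, s < 4 ∧ c = 4 * j + s :=
    ⟨c / 4, c % 4, Nat.mod_lt _ (by norm_num), (Nat.div_add_mod c 4).symm⟩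
  have hX : 2 ^ (3 * i + nlv i) * 2 ^ (3 * j + nlv j) ≤ 2 ^ (3 * (i + j) + nlv (i + j)) := by
    rw [← pow_add]
    apply Nat.pow_le_pow_right (by norm_num)
    have := nlv_add i j
    omega
  have hY : 8 * 2 ^ (3 * (i + j) + nlv (i + j)) ≤ 2 ^ (3 * (i + j + 1) + nlv (i + j + 1)) := by
    have h8 : (8 : ℕ) = 2 ^ 3 := by norm_num
    rw [h8, ← pow_add]
    apply Nat.pow_le_pow_right (by norm_num)
    have := nlv_mono (show i + j ≤ i + j + 1 by omega)
    omega
  have hsum : 4 * i + r + (4 * j + s) = 4 * (i + j) + (r + s) := by ring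
  rw [hsum]
  have hA : 0 < 2 ^ (3 * i + nlv i) := by positivity
  have hB : 0 < 2 ^ (3 * j + nlv j) := by positivity
  have hXp : 0 < 2 ^ (3 * (i + j) + nlv (i + j)) := by positivity
  interval_cases r <;> interval_cases s <;>
    simp only [Nat.reduceAdd, add_zero, nb_f0, nb_f1, nb_f2, nb_f3, nb_f4, nb_f5, nb_f6] <;>
    nlinarith [hX, hY, hA, hB, hXp]

theorem nb_one : nb 1 = 1 := by
  have h := nb_f1 0
  rw [mul_zero, zero_add] at h
  rw [h]
  simp [nlv]

theorem nb_mono {a c : ℕ} (h : a ≤ c) : nb a ≤ nb c := by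
  induction c, h using Nat.le_induction with
  | base => exact le_rfl
  | succ c _ ih =>
    have h1 := nb_mul_le c 1
    rw [nb_one, mul_one] at h1
    exact le_trans ih h1

theorem nb_two_pow (n : ℕ) : 2 ^ (n.factorial.factorization 2) ≤ nb n := by
  rw [Nat.factorization_def _ Nat.prime_two]
  exact nb_ge n

theorem nl_three_aux (j : ℕ) : j + nlv j ≤ nlv (3 * j) := by
  have h1 := nlv_add (2 * j) j
  have h2 : 2 * j + j = 3 * j := by ring
  rw [h2, nlv_two_mul] at h1
  omega

/-- the key inequality for `p = 3` -/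
theorem nb_three_mul (m : ℕ) (hm : m ≠ 2) : 3 ^ m * nb m ≤ nb (3 * m) := by
  obtain ⟨j, r, hr, rfl⟩ : ∃ j r, r < 4 ∧ m = 4 * j + r :=
    ⟨m / 4, m % 4, Nat.mod_lt _ (by norm_num), (Nat.div_add_mod m 4).symm⟩
  have h81 : 3 ^ (4 * j) ≤ 2 ^ (7 * j) := by
    rw [pow_mul, pow_mul]
    exact Nat.pow_le_pow_left (by norm_num) j
  have hD : 0 < 2 ^ (3 * j + nlv j) := by positivity
  have key : ∀ e : ℕ, 10 * j + nlv j ≤ e →
      3 ^ (4 * j) * 2 ^ (3 * j + nlv j) ≤ 2 ^ e := by
    intro e he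
    calc 3 ^ (4 * j) * 2 ^ (3 * j + nlv j) ≤ 2 ^ (7 * j) * 2 ^ (3 * j + nlv j) :=
          Nat.mul_le_mul_right _ h81
      _ = 2 ^ (7 * j + (3 * j + nlv j)) := (pow_add _ _ _).symm
      _ ≤ 2 ^ e := Nat.pow_le_pow_right (by norm_num) (by omega)
  have h3 := nl_three_aux j
  interval_cases r
  · have e1 : 3 * (4 * j + 0) = 4 * (3 * j) := by ring
    rw [e1, add_zero, nb_f0, nb_f0]
    exact key _ (by omega)
  · have e1 : 3 * (4 * j + 1) = 4 * (3 * j) + 3 := by ring
    rw [e1, nb_f1, nb_f3, pow_succ]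
    have := key (3 * (3 * j) + nlv (3 * j)) (by omega)
    nlinarith [this]
  · have hj : 1 ≤ j := by
      by_contra hj0
      apply hm
      omega
    have e1 : 3 * (4 * j + 2) = 4 * (3 * j + 1) + 2 := by ring
    rw [e1, nb_f2, nb_f2]
    have h4 := nlv_mono (show 3 * j ≤ 3 * j + 1 by omega)
    have h81' : ∀ i : ℕ, 1 ≤ i → 9 * 3 ^ (4 * i) ≤ 8 * 2 ^ (7 * i) := by
      intro i hi
      induction i, hi using Nat.le_induction with
      | base => norm_num
      | succ i _ ih =>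
        have e3 : 3 ^ (4 * (i + 1)) = 81 * 3 ^ (4 * i) := by
          rw [Nat.mul_add, pow_add]
          ring
        have e2 : 2 ^ (7 * (i + 1)) = 128 * 2 ^ (7 * i) := by
          rw [Nat.mul_add, pow_add]
          ring
        rw [e3, e2]
        have : 0 < 2 ^ (7 * i) := by positivity
        omega
    have hmain : 9 * 3 ^ (4 * j) * 2 ^ (3 * j + nlv j)
        ≤ 2 ^ (3 * (3 * j + 1) + nlv (3 * j + 1)) := by
      calc 9 * 3 ^ (4 * j) * 2 ^ (3 * j + nlv j)
          ≤ 8 * 2 ^ (7 * j) * 2 ^ (3 * j + nlv j) := Nat.mul_le_mul_right _ (h81' j hj)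
        _ = 2 ^ (3 + 7 * j + (3 * j + nlv j)) := by
            have e8 : (8 : ℕ) = 2 ^ 3 := by norm_num
            rw [e8, ← pow_add, ← pow_add]
        _ ≤ 2 ^ (3 * (3 * j + 1) + nlv (3 * j + 1)) :=
            Nat.pow_le_pow_right (by norm_num) (by omega)
    have h9 : 3 ^ (4 * j + 2) = 9 * 3 ^ (4 * j) := by
      rw [pow_add]
      ring
    rw [h9]
    nlinarith [hmain, hD]
  · have e1 : 3 * (4 * j + 3) = 4 * (3 * j + 2) + 1 := by ring
    rw [e1, nb_f3, nb_f1]
    have h4 := nlv_add (2 * (j + 1)) j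
    have h5 : 2 * (j + 1) + j = 3 * j + 2 := by ring
    rw [h5, nlv_two_mul] at h4
    have := key (3 * (3 * j + 2) + nlv (3 * j + 2) - 7) (by omega)
    have hE : 0 < 2 ^ (3 * (3 * j + 2) + nlv (3 * j + 2) - 7) := by positivity
    have h6 : 2 ^ (3 * (3 * j + 2) + nlv (3 * j + 2))
        = 128 * 2 ^ (3 * (3 * j + 2) + nlv (3 * j + 2) - 7) := by
      have h7 : 3 * (3 * j + 2) + nlv (3 * j + 2)
          = (3 * (3 * j + 2) + nlv (3 * j + 2) - 7) + 7 := by omega
      rw [h7, pow_add]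
      simp
      ring
    rw [h6]
    have h9 : 3 ^ (4 * j + 3) = 27 * 3 ^ (4 * j) := by
      rw [pow_add]
      ring
    rw [h9]
    nlinarith [this, hE, hD]

theorem nb_three_pow (n : ℕ) : 3 ^ (n.factorial.factorization 3) ≤ nb n := by
  have : Fact (Nat.Prime 3) := ⟨Nat.prime_three⟩
  rw [Nat.factorization_def _ Nat.prime_three]
  induction n using Nat.strong_induction_on with
  | _ n ih =>
    obtain ⟨m, r, hr, rfl⟩ : ∃ m r, r < 3 ∧ n = 3 * m + r :=
      ⟨n / 3, n % 3, Nat.mod_lt _ (by norm_num), (Nat.div_add_mod n 3).symm⟩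
    rw [padicValNat_factorial_mul_add m hr, padicValNat_factorial_mul, pow_add]
    rcases Nat.eq_zero_or_pos m with rfl | hmpos
    · simp only [Nat.factorial_zero, padicValNat_one_right, pow_zero, mul_one]
      exact nb_pos _
    · have hlt : m < 3 * m + r := by omega
      have h1 := ih m hlt
      by_cases hm2 : m = 2
      · subst hm2
        have h2 : padicValNat 3 (Nat.factorial 2) = 0 := by
          apply padicValNat.eq_zero_of_not_dvd
          decide
        rw [h2]
        have h3 : nb 6 = 16 := by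
          have h := nb_f2 1
          have h4 : nlv 1 = 0 := by simp [nlv]
          rw [h4] at h
          exact h
        have h5 : nb 6 ≤ nb (3 * 2 + r) := nb_mono (by omega)
        rw [h3] at h5
        refine le_trans ?_ h5
        norm_num
      · calc 3 ^ padicValNat 3 m.factorial * 3 ^ m ≤ nb m * 3 ^ m := Nat.mul_le_mul_right _ h1
          _ = 3 ^ m * nb m := mul_comm _ _
          _ ≤ nb (3 * m) := nb_three_mul m hm2
          _ ≤ nb (3 * m + r) := nb_mono (by omega)

theorem nb_eight_pow (k : ℕ) (hk : 1 ≤ k) : 4 * k + 3 ≤ 8 ^ k := by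
  induction k, hk using Nat.le_induction with
  | base => norm_num
  | succ k _ ih =>
    rw [pow_succ]
    omega

theorem nb_large_pow (p : ℕ) [Fact p.Prime] (hp : 5 ≤ p) (n : ℕ) :
    p ^ (n.factorial.factorization p) ≤ 2 ^ nlv n := by
  have hpp : p.Prime := Fact.out
  rw [Nat.factorization_def _ hpp]
  induction n using Nat.strong_induction_on with
  | _ n ih =>
    obtain ⟨m, r, hr, rfl⟩ : ∃ m r, r < p ∧ n = p * m + r :=
      ⟨n / p, n % p, Nat.mod_lt _ (by omega), (Nat.div_add_mod n p).symm⟩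
    rw [padicValNat_factorial_mul_add m hr, padicValNat_factorial_mul, pow_add]
    rcases Nat.eq_zero_or_pos m with rfl | hmpos
    · simp only [Nat.factorial_zero, padicValNat_one_right, pow_zero, mul_one]
      exact Nat.one_le_two_pow
    · have hlt : m < p * m + r := by nlinarith
      have h1 := ih m hlt
      obtain ⟨k, t, ht, hkt⟩ : ∃ k t, t < 4 ∧ p = 4 * k + t :=
        ⟨p / 4, p % 4, Nat.mod_lt _ (by norm_num), (Nat.div_add_mod p 4).symm⟩
      have hk : 1 ≤ k := by omega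
      have ht1 : 1 ≤ t := by
        by_contra h0
        have h4 : t = 0 := by omega
        rw [h4, add_zero] at hkt
        have h2 : 2 ∣ p := ⟨2 * k, by omega⟩
        have := (Nat.prime_dvd_prime_iff_eq Nat.prime_two hpp).mp h2
        omega
      have hp8 : p ≤ 8 ^ k := by
        have := nb_eight_pow k hk
        omega
      have h2 : 3 * (k * m) + nlv m ≤ nlv (p * m + r) := by
        have e1 : p * m = 4 * (k * m) + t * m := by
          rw [hkt]
          ring
        have h3 := nlv_add (4 * (k * m)) (t * m)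
        rw [← e1, nlv_four] at h3
        have h4 : nlv m ≤ nlv (t * m) := nlv_mono (by nlinarith)
        have h5 : nlv (p * m) ≤ nlv (p * m + r) := nlv_mono (by omega)
        omega
      calc p ^ padicValNat p m.factorial * p ^ m ≤ 2 ^ nlv m * (8 ^ k) ^ m :=
            Nat.mul_le_mul h1 (Nat.pow_le_pow_left hp8 m)
        _ = 2 ^ (nlv m + 3 * (k * m)) := by
            have h8 : (8 : ℕ) = 2 ^ 3 := by norm_num
            rw [h8, ← pow_mul, ← pow_mul, ← pow_add]
        _ ≤ 2 ^ nlv (p * m + r) := Nat.pow_le_pow_right (by norm_num) (by omega)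

/-- the order of a Sylow `p`-subgroup of `S_n` is at most `nb n` -/
theorem nb_prime_pow (p : ℕ) [Fact p.Prime] (n : ℕ) :
    p ^ (n.factorial.factorization p) ≤ nb n := by
  have hpp : p.Prime := Fact.out
  by_cases h2 : p = 2
  · subst h2
    exact nb_two_pow n
  · by_cases h3 : p = 3
    · subst h3
      exact nb_three_pow n
    · have h5 : 5 ≤ p := by
        have := hpp.two_le
        by_contra h
        have h4 : p = 4 := by omega
        subst h4
        exact absurd hpp (by decide)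
      exact le_trans (nb_large_pow p h5 n) (nb_ge n)

end Cfsg.Agent.Helper11
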