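import Mathlib
import Cfsg.Agent.Helper11.NilNum

set_option autoImplicit false

namespace Cfsg.Agent.Helper11

open Equiv

section nil

variable {G : Type} [Group G] {α : Type}

theorem nil_inv_apply (ρ : G →* Perm α) (h : G) (a : α) : ρ h⁻¹ (ρ h a) = a := by
  rw [← Perm.mul_apply, ← map_mul, inv_mul_cancel, map_one]
  rfl

theorem nil_apply_inv (ρ : G →* Perm α) (h : G) (a : α) : ρ h (ρ h⁻¹ a) = a := by
  rw [← Perm.mul_apply, ← map_mul, mul_inv_cancel, map_one]
  rfl

/-- the orbit of a point under a permutation representation -/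
def nilOrb (ρ : G →* Perm α) (a : α) : Set α := {b | ∃ g : G, ρ g a = b}

theorem nil_mem_orb (ρ : G →* Perm α) (a : α) : a ∈ nilOrb ρ a :=
  ⟨1, by rw [map_one]; rfl⟩

theorem nil_orb_smul (ρ : G →* Perm α) (a : α) (g : G) {b : α} (hb : b ∈ nilOrb ρ a) :
    ρ g b ∈ nilOrb ρ a := by
  obtain ⟨h, rfl⟩ := hb
  exact ⟨g * h, by rw [map_mul]; rfl⟩

theorem nil_orb_eq (ρ : G →* Perm α) {a b : α} (hb : b ∈ nilOrb ρ a) :
    nilOrb ρ b = nilOrb ρ a := by
  obtain ⟨h, rfl⟩ := hb
  ext c
  constructor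
  · rintro ⟨g, rfl⟩
    exact ⟨g * h, by rw [map_mul]; rfl⟩
  · rintro ⟨g, rfl⟩
    refine ⟨g * h⁻¹, ?_⟩
    rw [map_mul, Perm.mul_apply, nil_inv_apply]

/-- restriction of a permutation representation to an invariant subset -/
def nilRes (ρ : G →* Perm α) (S : Set α) (hS : ∀ g : G, ∀ b ∈ S, ρ g b ∈ S) : G →* Perm S where
  toFun g :=
    { toFun := fun b => ⟨ρ g b.1, hS g b.1 b.2⟩
      invFun := fun b => ⟨ρ g⁻¹ b.1, hS g⁻¹ b.1 b.2⟩
      left_inv := fun b => Subtype.ext (nil_inv_apply ρ g b.1)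
      right_inv := fun b => Subtype.ext (nil_apply_inv ρ g b.1) }
  map_one' := by
    apply Equiv.ext
    intro b
    apply Subtype.ext
    show ρ 1 b.1 = b.1
    rw [map_one]
    rfl
  map_mul' g h := by
    apply Equiv.ext
    intro b
    apply Subtype.ext
    show ρ (g * h) b.1 = ρ g (ρ h b.1)
    rw [map_mul]
    rfl

/-- the set of orbits of a subgroup -/
def NilBlk (ρ : G →* Perm α) (P : Subgroup G) : Type :=
  {s : Set α // ∃ a, s = nilOrb (ρ.comp P.subtype) a}

theorem nil_blk_image (ρ : G →* Perm α) (P : Subgroup G) [hP : P.Normal] (g : G) (a : α) :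
    ρ g '' nilOrb (ρ.comp P.subtype) a = nilOrb (ρ.comp P.subtype) (ρ g a) := by
  ext b
  constructor
  · rintro ⟨_, ⟨x, rfl⟩, rfl⟩
    refine ⟨⟨g * x * g⁻¹, hP.conj_mem x.1 x.2 g⟩, ?_⟩
    show ρ (g * x * g⁻¹) (ρ g a) = ρ g (ρ x a)
    rw [map_mul, map_mul, Perm.mul_apply, Perm.mul_apply, nil_inv_apply]
  · rintro ⟨x, rfl⟩
    refine ⟨ρ (g⁻¹ * x * g) a, ⟨⟨g⁻¹ * x * g, ?_⟩, rfl⟩, ?_⟩
    · have := hP.conj_mem x.1 x.2 g⁻¹
      rw [inv_inv] at this
      exact this
    · show ρ g (ρ (g⁻¹ * x * g) a) = ρ x (ρ g a)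
      rw [map_mul, map_mul, Perm.mul_apply, Perm.mul_apply, nil_apply_inv]

/-- the action on the set of orbits of a normal subgroup -/
def nilBlk (ρ : G →* Perm α) (P : Subgroup G) [hP : P.Normal] : G →* Perm (NilBlk ρ P) where
  toFun g :=
    { toFun := fun s => ⟨ρ g '' s.1, by
        obtain ⟨a, ha⟩ := s.2
        exact ⟨ρ g a, by rw [ha, nil_blk_image]⟩⟩
      invFun := fun s => ⟨ρ g⁻¹ '' s.1, by
        obtain ⟨a, ha⟩ := s.2
        exact ⟨ρ g⁻¹ a, by rw [ha, nil_blk_image]⟩⟩
      left_inv := fun s => Subtype.ext (by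
        show ρ g⁻¹ '' (ρ g '' s.1) = s.1
        rw [Set.image_image]
        simp)
      right_inv := fun s => Subtype.ext (by
        show ρ g '' (ρ g⁻¹ '' s.1) = s.1
        rw [Set.image_image]
        simp) }
  map_one' := by
    apply Equiv.ext
    intro s
    apply Subtype.ext
    show ρ 1 '' s.1 = s.1
    rw [map_one]
    simp
  map_mul' g h := by
    apply Equiv.ext
    intro s
    apply Subtype.ext
    show ρ (g * h) '' s.1 = ρ g '' (ρ h '' s.1)
    rw [map_mul, Set.image_image]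
    rfl

theorem nil_decomp [Finite G] [Group.IsNilpotent G] (p : ℕ) [Fact p.Prime] (P : Sylow p G) :
    ∀ g : G, ∃ c ∈ Subgroup.centralizer ((P : Subgroup G) : Set G),
      ∃ y ∈ (P : Subgroup G), g = c * y := by
  classical
  have hPn : (P : Subgroup G).Normal := inferInstance
  obtain ⟨C, hC⟩ : ∃ C : Subgroup G, C = Subgroup.centralizer ((P : Subgroup G) : Set G) :=
    ⟨_, rfl⟩
  rw [← hC]
  have hq : ∀ q : ℕ, q.Prime → q ∣ C.index → q = p := by
    intro q hqp hqd
    by_contra hne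
    haveI : Fact q.Prime := ⟨hqp⟩
    obtain ⟨Q⟩ : Nonempty (Sylow q G) := inferInstance
    have hQn : (Q : Subgroup G).Normal := inferInstance
    have hdisj : Disjoint (Q : Subgroup G) (P : Subgroup G) :=
      IsPGroup.disjoint_of_ne q p hne _ _ Q.isPGroup' P.isPGroup'
    have hQC : (Q : Subgroup G) ≤ C := by
      intro x hx
      rw [hC, Subgroup.mem_centralizer_iff]
      intro y hy
      exact ((Subgroup.commute_of_normal_of_disjoint _ _ hQn hPn hdisj x y hx hy).eq).symm
    exact Q.not_dvd_index (dvd_trans hqd (Subgroup.index_dvd_of_le hQC))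
  have hcop : Nat.Coprime C.index (P : Subgroup G).index := by
    apply Nat.coprime_of_dvd
    intro q hqp hd hd'
    rw [hq q hqp hd] at hd'
    exact P.not_dvd_index hd'
  have htop : C ⊔ (P : Subgroup G) = ⊤ := by
    rw [← Subgroup.index_eq_one]
    have h1 : (C ⊔ (P : Subgroup G)).index ∣ C.index := Subgroup.index_dvd_of_le le_sup_left
    have h2 : (C ⊔ (P : Subgroup G)).index ∣ (P : Subgroup G).index :=
      Subgroup.index_dvd_of_le le_sup_right
    have h3 := Nat.dvd_gcd h1 h2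
    rw [Nat.Coprime.gcd_eq_one hcop] at h3
    exact Nat.dvd_one.mp h3
  intro g
  have hg : g ∈ C ⊔ (P : Subgroup G) := by
    rw [htop]
    exact Subgroup.mem_top g
  rw [← SetLike.mem_coe, Subgroup.mul_normal C (P : Subgroup G)] at hg
  obtain ⟨c, hc, y, hy, rfl⟩ := Set.mem_mul.mp hg
  exact ⟨c, hc, y, hy, rfl⟩

/-- the inductive step for a transitive nilpotent group that is not of prime power order -/
theorem nil_step [Finite G] [Group.IsNilpotent G] [Finite α] (ρ : G →* Perm α)
    (hρ : Function.Injective ρ) (htrans : ∀ a b : α, ∃ g : G, ρ g a = b)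
    (p : ℕ) [Fact p.Prime] (hpd : p ∣ Nat.card G) (hnp : ¬ IsPGroup p G)
    (IH : ∀ m : ℕ, m < Nat.card α → ∀ (β : Type) [Finite β], Nat.card β = m →
      ∀ M : Subgroup (Perm β), Group.IsNilpotent M → Nat.card M ≤ nb m) :
    Nat.card G ≤ nb (Nat.card α) := by
  classical
  obtain ⟨P⟩ : Nonempty (Sylow p G) := inferInstance
  have hPn : (P : Subgroup G).Normal := inferInstance
  have hdec := nil_decomp p P
  obtain ⟨e, he⟩ := IsPGroup.iff_card.mp P.isPGroup'
  have hpp : p.Prime := Fact.out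
  have hPcard2 : 2 ≤ Nat.card (P : Subgroup G) := by
    rw [P.card_eq_multiplicity]
    have hpos : 0 < (Nat.card G).factorization p :=
      hpp.factorization_pos_of_dvd Nat.card_pos.ne' hpd
    calc 2 ≤ p := hpp.two_le
      _ = p ^ 1 := (pow_one p).symm
      _ ≤ p ^ (Nat.card G).factorization p := Nat.pow_le_pow_right hpp.pos hpos
  have IH' : ∀ {H : Type} [Group H] [Group.IsNilpotent H] (β : Type) [Finite β]
      (φ : H →* Perm β), Nat.card β < Nat.card α → Nat.card φ.range ≤ nb (Nat.card β) := by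
    intro H _ _ β _ φ hlt
    exact IH _ hlt β rfl φ.range
      (Group.nilpotent_of_surjective φ.rangeRestrict φ.rangeRestrict_surjective)
  have hcomm : ∀ c ∈ Subgroup.centralizer ((P : Subgroup G) : Set G), ∀ z : G,
      z ∈ (P : Subgroup G) → ∀ b : α, ρ z (ρ c b) = ρ c (ρ z b) := by
    intro c hc z hz b
    have h := Subgroup.mem_centralizer_iff.mp hc z hz
    rw [← Perm.mul_apply, ← map_mul, h, map_mul, Perm.mul_apply]
  -- a base point
  obtain ⟨a₀⟩ : Nonempty α := by
    by_contra hemp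
    rw [not_nonempty_iff] at hemp
    have hsub : ∀ g : G, g = 1 := by
      intro g
      apply hρ
      apply Equiv.ext
      intro a
      exact isEmptyElim a
    have hle : Nat.card (P : Subgroup G) ≤ 1 := by
      rw [Finite.card_le_one_iff_subsingleton]
      exact ⟨fun x y => Subtype.ext ((hsub x.1).trans (hsub y.1).symm)⟩
    omega
  obtain ⟨O, hOdef⟩ : ∃ O : Set α, O = nilOrb (ρ.comp (P : Subgroup G).subtype) a₀ := ⟨_, rfl⟩
  have hO : ∀ x : (P : Subgroup G), ∀ b ∈ O, (ρ.comp (P : Subgroup G).subtype) x b ∈ O := by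
    intro x b hb
    rw [hOdef] at hb ⊢
    exact nil_orb_smul _ a₀ x hb
  obtain ⟨ψ, hψdef⟩ : ∃ ψ : (P : Subgroup G) →* Perm O,
      ψ = nilRes (ρ.comp (P : Subgroup G).subtype) O hO := ⟨_, rfl⟩
  have hψapp : ∀ (x : (P : Subgroup G)) (o : O), ((ψ x o : O) : α) = ρ x.1 o.1 := by
    intro x o
    rw [hψdef]
    rfl
  have hψ : Function.Injective ψ := by
    intro x x' hxx
    apply Subtype.ext
    apply hρ
    apply Equiv.ext
    intro b
    obtain ⟨g, rfl⟩ := htrans a₀ b
    obtain ⟨c, hc, y, hy, rfl⟩ := hdec g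
    have ho : ρ y a₀ ∈ O := by
      rw [hOdef]
      exact ⟨⟨y, hy⟩, rfl⟩
    have h1 : ρ x.1 (ρ y a₀) = ρ x'.1 (ρ y a₀) := by
      have h := congrArg Subtype.val (Equiv.congr_fun hxx ⟨ρ y a₀, ho⟩)
      rw [hψapp, hψapp] at h
      exact h
    calc ρ x.1 (ρ (c * y) a₀) = ρ x.1 (ρ c (ρ y a₀)) := by rw [map_mul]; rfl
      _ = ρ c (ρ x.1 (ρ y a₀)) := hcomm c hc x.1 x.2 _
      _ = ρ c (ρ x'.1 (ρ y a₀)) := by rw [h1]
      _ = ρ x'.1 (ρ c (ρ y a₀)) := (hcomm c hc x'.1 x'.2 _).symm
      _ = ρ x'.1 (ρ (c * y) a₀) := by rw [map_mul]; rfl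
  have hPψ : Nat.card (P : Subgroup G) = Nat.card ψ.range :=
    Nat.card_congr (MonoidHom.ofInjective hψ).toEquiv
  -- the block action
  haveI : Finite (NilBlk ρ (P : Subgroup G)) := by
    unfold NilBlk
    infer_instance
  obtain ⟨φ, hφdef⟩ : ∃ φ : G →* Perm (NilBlk ρ (P : Subgroup G)),
      φ = nilBlk ρ (P : Subgroup G) := ⟨_, rfl⟩
  have hφapp : ∀ (g : G) (s : NilBlk ρ (P : Subgroup G)), (φ g s).1 = ρ g '' s.1 := by
    intro g s
    rw [hφdef]
    rfl
  have hK : ∀ g ∈ φ.ker, g ^ (p ^ e) = 1 := by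
    intro g hg
    have hfix : ∀ a, ρ g a ∈ nilOrb (ρ.comp (P : Subgroup G).subtype) a := by
      intro a
      obtain ⟨s, hs⟩ : ∃ s : NilBlk ρ (P : Subgroup G),
          s.1 = nilOrb (ρ.comp (P : Subgroup G).subtype) a := ⟨⟨_, a, rfl⟩, rfl⟩
      have h1 : (φ g s).1 = s.1 :=
        congrArg Subtype.val (Equiv.congr_fun (MonoidHom.mem_ker.mp hg) s)
      rw [hφapp, hs] at h1
      rw [← h1]
      exact ⟨a, nil_mem_orb _ a, rfl⟩
    obtain ⟨c, hc, y, hy, rfl⟩ := hdec g
    have hcfix : ∀ a, ∃ x ∈ (P : Subgroup G), ρ x a = ρ c a := by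
      intro a
      have h1 := hfix (ρ y⁻¹ a)
      have h2 : ρ (c * y) (ρ y⁻¹ a) = ρ c a := by
        rw [map_mul, Perm.mul_apply, nil_apply_inv]
      rw [h2] at h1
      have h3 : ρ y⁻¹ a ∈ nilOrb (ρ.comp (P : Subgroup G).subtype) a :=
        ⟨⟨y⁻¹, (P : Subgroup G).inv_mem hy⟩, rfl⟩
      rw [nil_orb_eq _ h3] at h1
      obtain ⟨x, hx⟩ := h1
      exact ⟨x.1, x.2, hx⟩
    have hpowP : ∀ x ∈ (P : Subgroup G), x ^ (p ^ e) = 1 := by
      intro x hx
      have h := pow_card_eq_one' (G := (P : Subgroup G)) (x := ⟨x, hx⟩)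
      rw [he] at h
      exact congrArg Subtype.val h
    have hcp : c ^ (p ^ e) = 1 := by
      apply hρ
      rw [map_one]
      apply Equiv.ext
      intro a
      obtain ⟨x, hx, hxa⟩ := hcfix a
      have hpow : ∀ k : ℕ, ρ (c ^ k) a = ρ (x ^ k) a := by
        intro k
        induction k with
        | zero => rw [pow_zero, pow_zero]
        | succ k ih =>
          have e1 : ρ (c ^ (k + 1)) a = ρ c (ρ (c ^ k) a) := by
            rw [pow_succ', map_mul]
            rfl
          have e2 : ρ (x ^ (k + 1)) a = ρ (x ^ k) (ρ x a) := by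
            rw [pow_succ, map_mul]
            rfl
          rw [e1, e2, ih, hxa]
          exact (hcomm c hc (x ^ k) (Subgroup.pow_mem _ hx k) a).symm
      rw [hpow, hpowP x hx, map_one]
    have hcy : Commute c y := (Subgroup.mem_centralizer_iff.mp hc y hy).symm
    rw [hcy.mul_pow, hcp, hpowP y hy, one_mul]
  have hKp : IsPGroup p φ.ker := by
    intro g
    refine ⟨e, Subtype.ext ?_⟩
    rw [Subgroup.coe_pow]
    exact hK g.1 g.2
  have hker : Nat.card φ.ker ≤ Nat.card (P : Subgroup G) := by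
    obtain ⟨Q, hQ⟩ := hKp.exists_le_sylow
    have h : Nat.card φ.ker ≤ Nat.card (Q : Subgroup G) := Subgroup.card_le_of_le hQ
    rw [Q.card_eq_multiplicity, ← P.card_eq_multiplicity] at h
    exact h
  have hΩ2 : 2 ≤ Nat.card (NilBlk ρ (P : Subgroup G)) := by
    by_contra hlt
    have hsub : Subsingleton (NilBlk ρ (P : Subgroup G)) :=
      Finite.card_le_one_iff_subsingleton.mp (by omega)
    apply hnp
    intro g
    refine ⟨e, hK g ?_⟩
    rw [MonoidHom.mem_ker]
    apply Equiv.ext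
    intro s
    exact Subsingleton.elim _ _
  have hO2 : 2 ≤ Nat.card O := by
    by_contra hlt
    have hsub : Subsingleton O := Finite.card_le_one_iff_subsingleton.mp (by omega)
    have hle : Nat.card (P : Subgroup G) ≤ 1 := by
      rw [Finite.card_le_one_iff_subsingleton]
      refine ⟨fun x y => hψ ?_⟩
      apply Equiv.ext
      intro o
      exact Subsingleton.elim _ _
    omega
  -- counting
  have hcount : Nat.card (NilBlk ρ (P : Subgroup G)) * Nat.card O ≤ Nat.card α := by
    have hrep : ∀ s : NilBlk ρ (P : Subgroup G), ∃ g : G,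
        s.1 = nilOrb (ρ.comp (P : Subgroup G).subtype) (ρ g a₀) := by
      intro s
      obtain ⟨a, ha⟩ := s.2
      obtain ⟨g, hg⟩ := htrans a₀ a
      exact ⟨g, by rw [hg]; exact ha⟩
    choose gs hgs using hrep
    have hmem : ∀ (s : NilBlk ρ (P : Subgroup G)) (o : O), ρ (gs s) o.1 ∈ s.1 := by
      intro s o
      rw [hgs s, ← nil_blk_image]
      refine ⟨o.1, ?_, rfl⟩
      rw [← hOdef]
      exact o.2
    let J : NilBlk ρ (P : Subgroup G) × O → α := fun z => ρ (gs z.1) z.2.1
    have hJ : Function.Injective J := by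
      rintro ⟨s, o⟩ ⟨s', o'⟩ hz
      have hz' : ρ (gs s) o.1 = ρ (gs s') o'.1 := hz
      have h1 := hmem s o
      have h2 := hmem s' o'
      rw [← hz'] at h2
      have hs : s = s' := by
        apply Subtype.ext
        obtain ⟨a, ha⟩ := s.2
        obtain ⟨a', ha'⟩ := s'.2
        rw [ha] at h1
        rw [ha'] at h2
        rw [ha, ha', ← nil_orb_eq _ h1, ← nil_orb_eq _ h2]
      subst hs
      have ho : o.1 = o'.1 := (ρ (gs s)).injective hz'
      rw [Subtype.ext ho]
    have h := Nat.card_le_card_of_injective J hJ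
    rw [Nat.card_prod] at h
    exact h
  have hΩlt : Nat.card (NilBlk ρ (P : Subgroup G)) < Nat.card α := by nlinarith
  have hOlt : Nat.card O < Nat.card α := by nlinarith
  have hsum : Nat.card O + Nat.card (NilBlk ρ (P : Subgroup G)) ≤ Nat.card α := by nlinarith
  calc Nat.card G = Nat.card φ.ker * Nat.card φ.range := by
        rw [← Subgroup.index_ker, Subgroup.card_mul_index]
    _ ≤ Nat.card (P : Subgroup G) * nb (Nat.card (NilBlk ρ (P : Subgroup G))) :=
        Nat.mul_le_mul hker (IH' _ φ hΩlt)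
    _ ≤ nb (Nat.card O) * nb (Nat.card (NilBlk ρ (P : Subgroup G))) :=
        Nat.mul_le_mul_right _ (by rw [hPψ]; exact IH' _ ψ hOlt)
    _ ≤ nb (Nat.card O + Nat.card (NilBlk ρ (P : Subgroup G))) := nb_mul_le _ _
    _ ≤ nb (Nat.card α) := nb_mono hsum

end nil

/-- nilpotent subgroups of symmetric groups have order at most `nb n` -/
theorem nil_bound : ∀ (n : ℕ) (α : Type) [Finite α], Nat.card α = n →
    ∀ N : Subgroup (Perm α), Group.IsNilpotent N → Nat.card N ≤ nb n := by
  intro n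
  induction n using Nat.strong_induction_on with
  | _ n ih =>
    intro α _ hα N hN
    classical
    haveI := hN
    by_cases htr : ∀ a b : α, ∃ g : N, (N.subtype g) a = b
    · by_cases h1 : Nat.card N = 1
      · rw [h1]
        exact nb_pos n
      · obtain ⟨p, hp, hpd⟩ := Nat.exists_prime_and_dvd h1
        haveI : Fact p.Prime := ⟨hp⟩
        by_cases hpg : IsPGroup p N
        · obtain ⟨Q, hQ⟩ := hpg.exists_le_sylow
          have h2 : Nat.card N ≤ Nat.card (Q : Subgroup (Perm α)) := Subgroup.card_le_of_le hQ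
          rw [Q.card_eq_multiplicity, Nat.card_perm, hα] at h2
          exact le_trans h2 (nb_prime_pow p n)
        · have h := nil_step (G := N) N.subtype N.subtype_injective htr p hpd hpg (by
            intro m hm β _ hβ M hM
            exact ih m (hα ▸ hm) β hβ M hM)
          rw [hα] at h
          exact h
    · push_neg at htr
      obtain ⟨a, b, hab⟩ := htr
      obtain ⟨O, hOdef⟩ : ∃ O : Set α, O = nilOrb N.subtype a := ⟨_, rfl⟩
      have haO : a ∈ O := by
        rw [hOdef]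
        exact nil_mem_orb _ a
      have hbO : b ∈ Oᶜ := by
        rw [hOdef]
        rintro ⟨g, hg⟩
        exact hab g hg
      have hO : ∀ g : N, ∀ c ∈ O, N.subtype g c ∈ O := by
        intro g c hc
        rw [hOdef] at hc ⊢
        exact nil_orb_smul _ a g hc
      have hOc : ∀ g : N, ∀ c ∈ Oᶜ, N.subtype g c ∈ Oᶜ := by
        intro g c hc hmem
        apply hc
        have h := hO g⁻¹ _ hmem
        rw [nil_inv_apply] at h
        exact h
      obtain ⟨φ₁, hφ₁⟩ : ∃ φ₁ : N →* Perm O, φ₁ = nilRes N.subtype O hO := ⟨_, rfl⟩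
      obtain ⟨φ₂, hφ₂⟩ : ∃ φ₂ : N →* Perm (Oᶜ : Set α), φ₂ = nilRes N.subtype Oᶜ hOc := ⟨_, rfl⟩
      have hcard : Nat.card O + Nat.card (Oᶜ : Set α) = Nat.card α := by
        rw [← Nat.card_sum]
        exact Nat.card_congr (Equiv.Set.sumCompl O)
      have hO1 : 1 ≤ Nat.card O := by
        haveI : Nonempty O := ⟨⟨a, haO⟩⟩
        exact Nat.card_pos
      have hOc1 : 1 ≤ Nat.card (Oᶜ : Set α) := by
        haveI : Nonempty (Oᶜ : Set α) := ⟨⟨b, hbO⟩⟩
        exact Nat.card_pos
      let F : N → φ₁.range × φ₂.range := fun g => (φ₁.rangeRestrict g, φ₂.rangeRestrict g)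
      have hF : Function.Injective F := by
        intro g g' hgg
        have e1 : φ₁ g = φ₁ g' := congrArg (fun z : φ₁.range × φ₂.range => (z.1 : Perm O)) hgg
        have e2 : φ₂ g = φ₂ g' :=
          congrArg (fun z : φ₁.range × φ₂.range => (z.2 : Perm (Oᶜ : Set α))) hgg
        apply N.subtype_injective
        apply Equiv.ext
        intro c
        by_cases hc : c ∈ O
        · have h := congrArg Subtype.val (Equiv.congr_fun e1 ⟨c, hc⟩)
          rw [hφ₁] at h
          exact h
        · have h := congrArg Subtype.val (Equiv.congr_fun e2 ⟨c, hc⟩)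
          rw [hφ₂] at h
          exact h
      calc Nat.card N ≤ Nat.card (φ₁.range × φ₂.range) := Nat.card_le_card_of_injective F hF
        _ = Nat.card φ₁.range * Nat.card φ₂.range := Nat.card_prod _ _
        _ ≤ nb (Nat.card O) * nb (Nat.card (Oᶜ : Set α)) :=
            Nat.mul_le_mul
              (ih _ (by omega) O rfl φ₁.range
                (Group.nilpotent_of_surjective φ₁.rangeRestrict φ₁.rangeRestrict_surjective))
              (ih _ (by omega) (Oᶜ : Set α) rfl φ₂.range
                (Group.nilpotent_of_surjective φ₂.rangeRestrict φ₂.rangeRestrict_surjective))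
        _ ≤ nb (Nat.card O + Nat.card (Oᶜ : Set α)) := nb_mul_le _ _
        _ = nb n := by rw [hcard, hα]

/-- nilpotent subgroups of `S_n`, `n ≢ 3 mod 4`, are no larger than a Sylow 2-subgroup -/
theorem nil_main (n : ℕ) (hn : n % 4 ≠ 3) (N : Subgroup (Perm (Fin n)))
    (hN : Group.IsNilpotent N) (P : Sylow 2 (Perm (Fin n))) : Nat.card N ≤ Nat.card P := by
  have hfin : Nat.card (Fin n) = n := by rw [Nat.card_eq_fintype_card, Fintype.card_fin]
  have h := nil_bound n (Fin n) hfin N hN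
  rw [P.card_eq_multiplicity, Nat.card_perm, hfin, Nat.factorization_def _ Nat.prime_two]
  have h2 : nb n = 2 ^ padicValNat 2 n.factorial := by
    unfold nb
    rw [if_neg hn]
    rfl
  rw [← h2]
  exact h

end Cfsg.Agent.Helper11
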