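import Mathlib

set_option autoImplicit false

namespace Cfsg.Agent.Helper11

open Module

open scoped Matrix

universe u v

/-- a set of pairwise commuting involutive isometries of a nondegenerate alternating form on a
space of dimension `d` has at most `2 ^ (d / 2)` elements -/
theorem spr_rank {F : Type v} [Field F] (h2 : (2 : F) ≠ 0) (d : ℕ) :
    ∀ (V : Type u) [AddCommGroup V] [Module F V] [FiniteDimensional F V]
      (ω : V →ₗ[F] V →ₗ[F] F) (_ : ∀ v, ω v v = 0) (_ : ∀ v, (∀ w, ω v w = 0) → v = 0)
      (_ : finrank F V = d) (A : Set (Module.End F V))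
      (_ : ∀ a ∈ A, a * a = 1 ∧ ∀ v w, ω (a v) (a w) = ω v w)
      (_ : ∀ a ∈ A, ∀ b ∈ A, a * b = b * a), Finite A ∧ Nat.card A ≤ 2 ^ (d / 2) := by
  induction d using Nat.strong_induction_on with
  | _ d ih =>
    intro V _ _ _ ω halt hnd hd A hA hcomm
    by_cases hsc : ∀ a ∈ A, a = 1 ∨ a = -1
    · have hsub : A ⊆ ({1, -1} : Set (Module.End F V)) := fun a ha => by
        rcases hsc a ha with h | h <;> simp [h]
      have hfin : Finite A := (Set.Finite.subset (Set.toFinite _) hsub).to_subtype
      refine ⟨hfin, ?_⟩
      rcases Nat.lt_or_ge d 2 with hd2 | hd2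
      · have hd0 : d = 0 := by
          by_contra hne
          have hd1 : finrank F V = 1 := by omega
          obtain ⟨v, hv, hspan⟩ := finrank_eq_one_iff'.mp hd1
          apply hv
          apply hnd
          intro w
          obtain ⟨c, rfl⟩ := hspan w
          rw [map_smul, halt, smul_zero]
        have hsub1 : Subsingleton V := by
          rw [hd0] at hd
          exact finrank_zero_iff.mp hd
        have hsA : Subsingleton A :=
          ⟨fun a b => Subtype.ext (LinearMap.ext fun v => Subsingleton.elim _ _)⟩
        rw [hd0]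
        exact Finite.card_le_one_iff_subsingleton.mpr hsA
      · calc Nat.card A ≤ Nat.card ({1, -1} : Set (Module.End F V)) :=
              Nat.card_mono (Set.toFinite _) hsub
          _ ≤ 2 := by
              rw [Nat.card_coe_set_eq]
              exact le_trans (Set.ncard_insert_le _ _) (by rw [Set.ncard_singleton])
          _ = 2 ^ 1 := (pow_one 2).symm
          _ ≤ 2 ^ (d / 2) := Nat.pow_le_pow_right (by norm_num) (by omega)
    · push Not at hsc
      obtain ⟨a₀, ha₀, hne1, hne2⟩ := hsc
      have ha₀2 : ∀ v, a₀ (a₀ v) = v := fun v =>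
        congrArg (fun f : Module.End F V => f v) (hA a₀ ha₀).1
      obtain ⟨P, hP⟩ : ∃ P : Submodule F V, ∀ v, v ∈ P ↔ a₀ v = v := by
        refine ⟨LinearMap.ker (a₀ - 1), fun v => ?_⟩
        rw [LinearMap.mem_ker, LinearMap.sub_apply, Module.End.one_apply, sub_eq_zero]
      obtain ⟨M, hM⟩ : ∃ M : Submodule F V, ∀ v, v ∈ M ↔ a₀ v = -v := by
        refine ⟨LinearMap.ker (a₀ + 1), fun v => ?_⟩
        rw [LinearMap.mem_ker, LinearMap.add_apply, Module.End.one_apply, add_eq_zero_iff_eq_neg]
      have hsup : P ⊔ M = ⊤ := by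
        rw [eq_top_iff]
        intro v _
        have hv : v = (2 : F)⁻¹ • (v + a₀ v) + (2 : F)⁻¹ • (v - a₀ v) := by
          rw [← smul_add, add_add_sub_cancel, ← two_smul F v, smul_smul, inv_mul_cancel₀ h2,
            one_smul]
        rw [hv]
        refine Submodule.add_mem_sup (Submodule.smul_mem _ _ ?_) (Submodule.smul_mem _ _ ?_)
        · rw [hP, map_add, ha₀2, add_comm]
        · rw [hM, map_sub, ha₀2, neg_sub]
      have hinf : P ⊓ M = ⊥ := by
        rw [eq_bot_iff]
        intro v hv
        have h1 := (hP v).mp hv.1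
        have h3 := (hM v).mp hv.2
        rw [Submodule.mem_bot]
        have h5 : v = -v := h1.symm.trans h3
        have h6 : v + v = 0 := by
          rw [eq_neg_iff_add_eq_zero] at h5
          exact h5
        have h4 : (2 : F) • v = 0 := by
          rw [two_smul]
          exact h6
        exact (smul_eq_zero.mp h4).resolve_left h2
      have hdim : finrank F P + finrank F M = d := by
        have h := Submodule.finrank_sup_add_finrank_inf_eq P M
        rw [hsup, hinf, finrank_top, finrank_bot, add_zero, hd] at h
        exact h.symm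
      have hPne : P ≠ ⊤ := by
        intro h
        apply hne1
        apply LinearMap.ext
        intro v
        exact (hP v).mp (h ▸ Submodule.mem_top)
      have hMne : M ≠ ⊤ := by
        intro h
        apply hne2
        apply LinearMap.ext
        intro v
        rw [LinearMap.neg_apply, Module.End.one_apply]
        exact (hM v).mp (h ▸ Submodule.mem_top)
      have hPlt : finrank F P < d := by
        rw [← hd]
        exact Submodule.finrank_lt hPne
      have hMlt : finrank F M < d := by
        rw [← hd]
        exact Submodule.finrank_lt hMne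
      have horth : ∀ p ∈ P, ∀ m ∈ M, ω p m = 0 := by
        intro p hp m hm
        have h1 := (hA a₀ ha₀).2 p m
        rw [(hP p).mp hp, (hM m).mp hm, map_neg] at h1
        have h3 : (2 : F) * ω p m = 0 := by linear_combination -h1
        exact (mul_eq_zero.mp h3).resolve_left h2
      have horth' : ∀ p ∈ P, ∀ m ∈ M, ω m p = 0 := by
        intro p hp m hm
        have h1 := (hA a₀ ha₀).2 m p
        rw [(hP p).mp hp, (hM m).mp hm, map_neg, LinearMap.neg_apply] at h1
        have h3 : (2 : F) * ω m p = 0 := by linear_combination -h1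
        exact (mul_eq_zero.mp h3).resolve_left h2
      have hinvP : ∀ a ∈ A, ∀ v ∈ P, a v ∈ P := by
        intro a ha v hv
        rw [hP] at hv ⊢
        have h1 : a₀ (a v) = a (a₀ v) :=
          congrArg (fun f : Module.End F V => f v) (hcomm a₀ ha₀ a ha)
        rw [hv] at h1
        exact h1
      have hinvM : ∀ a ∈ A, ∀ v ∈ M, a v ∈ M := by
        intro a ha v hv
        rw [hM] at hv ⊢
        have h1 : a₀ (a v) = a (a₀ v) :=
          congrArg (fun f : Module.End F V => f v) (hcomm a₀ ha₀ a ha)
        rw [hv, map_neg] at h1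
        exact h1
      have hndP : ∀ v : P, (∀ w : P, (ω.domRestrict₁₂ P P) v w = 0) → v = 0 := by
        intro v hv
        apply Subtype.ext
        apply hnd
        intro w
        have hw : w ∈ P ⊔ M := hsup ▸ Submodule.mem_top
        obtain ⟨p, hp, m, hm, rfl⟩ := Submodule.mem_sup.mp hw
        rw [map_add, horth v.1 v.2 m hm, add_zero]
        exact hv ⟨p, hp⟩
      have hndM : ∀ v : M, (∀ w : M, (ω.domRestrict₁₂ M M) v w = 0) → v = 0 := by
        intro v hv
        apply Subtype.ext
        apply hnd
        intro w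
        have hw : w ∈ P ⊔ M := hsup ▸ Submodule.mem_top
        obtain ⟨p, hp, m, hm, rfl⟩ := Submodule.mem_sup.mp hw
        rw [map_add, horth' p hp v.1 v.2, zero_add]
        exact hv ⟨m, hm⟩
      obtain ⟨AP, hAPdef⟩ : ∃ AP : Set (Module.End F P),
          AP = Set.range (fun a : A => (a.1).restrict (hinvP a.1 a.2)) := ⟨_, rfl⟩
      obtain ⟨AM, hAMdef⟩ : ∃ AM : Set (Module.End F M),
          AM = Set.range (fun a : A => (a.1).restrict (hinvM a.1 a.2)) := ⟨_, rfl⟩
      have hAP : ∀ b ∈ AP, b * b = 1 ∧
          ∀ v w, (ω.domRestrict₁₂ P P) (b v) (b w) = (ω.domRestrict₁₂ P P) v w := by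
        rw [hAPdef]
        rintro _ ⟨a, rfl⟩
        constructor
        · apply LinearMap.ext
          intro v
          apply Subtype.ext
          exact congrArg (fun f : Module.End F V => f v.1) (hA a.1 a.2).1
        · intro v w
          exact (hA a.1 a.2).2 v.1 w.1
      have hAM : ∀ b ∈ AM, b * b = 1 ∧
          ∀ v w, (ω.domRestrict₁₂ M M) (b v) (b w) = (ω.domRestrict₁₂ M M) v w := by
        rw [hAMdef]
        rintro _ ⟨a, rfl⟩
        constructor
        · apply LinearMap.ext
          intro v
          apply Subtype.ext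
          exact congrArg (fun f : Module.End F V => f v.1) (hA a.1 a.2).1
        · intro v w
          exact (hA a.1 a.2).2 v.1 w.1
      have hcommP : ∀ b ∈ AP, ∀ c ∈ AP, b * c = c * b := by
        rw [hAPdef]
        rintro _ ⟨a, rfl⟩ _ ⟨b, rfl⟩
        apply LinearMap.ext
        intro v
        apply Subtype.ext
        exact congrArg (fun f : Module.End F V => f v.1) (hcomm a.1 a.2 b.1 b.2)
      have hcommM : ∀ b ∈ AM, ∀ c ∈ AM, b * c = c * b := by
        rw [hAMdef]
        rintro _ ⟨a, rfl⟩ _ ⟨b, rfl⟩
        apply LinearMap.ext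
        intro v
        apply Subtype.ext
        exact congrArg (fun f : Module.End F V => f v.1) (hcomm a.1 a.2 b.1 b.2)
      obtain ⟨hfP, hcP⟩ := ih (finrank F P) hPlt P (ω.domRestrict₁₂ P P) (fun v => halt v.1)
        hndP rfl AP hAP hcommP
      obtain ⟨hfM, hcM⟩ := ih (finrank F M) hMlt M (ω.domRestrict₁₂ M M) (fun v => halt v.1)
        hndM rfl AM hAM hcommM
      let f : A → AP × AM := fun a =>
        (⟨(a.1).restrict (hinvP a.1 a.2), hAPdef ▸ ⟨a, rfl⟩⟩,
          ⟨(a.1).restrict (hinvM a.1 a.2), hAMdef ▸ ⟨a, rfl⟩⟩)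
      have hf : Function.Injective f := by
        intro a b hab
        apply Subtype.ext
        apply LinearMap.ext
        intro v
        have hv : v ∈ P ⊔ M := hsup ▸ Submodule.mem_top
        obtain ⟨p, hp, m, hm, rfl⟩ := Submodule.mem_sup.mp hv
        have h1 : a.1 p = b.1 p :=
          congrArg (fun z : AP × AM => ((z.1.1 ⟨p, hp⟩ : P) : V)) hab
        have h3 : a.1 m = b.1 m :=
          congrArg (fun z : AP × AM => ((z.2.1 ⟨m, hm⟩ : M) : V)) hab
        rw [map_add, map_add, h1, h3]
      have hfinA : Finite A := Finite.of_injective f hf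
      refine ⟨hfinA, ?_⟩
      calc Nat.card A ≤ Nat.card (AP × AM) := Nat.card_le_card_of_injective f hf
        _ = Nat.card AP * Nat.card AM := Nat.card_prod _ _
        _ ≤ 2 ^ (finrank F P / 2) * 2 ^ (finrank F M / 2) := Nat.mul_le_mul hcP hcM
        _ = 2 ^ (finrank F P / 2 + finrank F M / 2) := (pow_add _ _ _).symm
        _ ≤ 2 ^ (d / 2) := Nat.pow_le_pow_right (by norm_num) (by omega)

end Cfsg.Agent.Helper11
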