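import Mathlib

set_option autoImplicit false
set_option linter.style.haveILetI false
set_option warn.classDefReducibility false

namespace Cfsg.Agent.Helper11

open scoped commutatorElement Pointwise

/-- cocycle splitting for a coprime action on an abelian group -/
theorem zg_cocycle_split {A M : Type*} [Group A] [Finite A] [Group M] [Finite M]
    [MulDistribMulAction A M] (hcomm : ∀ x y : M, x * y = y * x)
    (hcop : (Nat.card A).Coprime (Nat.card M))
    (c : A → M) (hc : ∀ a b, c (a * b) = c a * a • c b) : ∃ k : M, ∀ a, c a * a • k = k := by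
  classical
  letI : CommGroup M := { (inferInstance : Group M) with mul_comm := hcomm }
  haveI : Fintype A := Fintype.ofFinite A
  obtain ⟨d, hd⟩ : ∃ d : M, d = ∏ b : A, c b := ⟨_, rfl⟩
  have hcop' : (Nat.card M).Coprime (Nat.card A) := hcop.symm
  obtain ⟨k, hk⟩ := (powCoprime hcop').surjective d
  have hk' : k ^ Nat.card A = d := hk
  refine ⟨k, fun a => ?_⟩
  apply (powCoprime hcop').injective
  show (c a * a • k) ^ Nat.card A = k ^ Nat.card A
  have h1 : ∏ b : A, c (a * b) = d := by
    rw [hd]; exact Fintype.prod_equiv (Equiv.mulLeft a) _ _ (fun b => rfl)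
  have h2 : ∏ b : A, c (a * b) = c a ^ Nat.card A * a • d := by
    simp_rw [hc]
    rw [Finset.prod_mul_distrib, Finset.prod_const, Finset.card_univ, ← Nat.card_eq_fintype_card,
      hd, Finset.smul_prod']
  rw [mul_pow, ← smul_pow', hk', ← h2, h1]

/-- the norm map kills `[M, A]`; fixed points in `[M, A]` are trivial -/
theorem zg_norm_kernel {A M : Type*} [Group A] [Finite A] [Group M] [Finite M]
    [MulDistribMulAction A M] (hcomm : ∀ x y : M, x * y = y * x)
    (hcop : (Nat.card A).Coprime (Nat.card M)) (x : M)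
    (hx : x ∈ Subgroup.closure {y : M | ∃ (a : A) (k : M), y = k⁻¹ * a • k})
    (hfix : ∀ a : A, a • x = x) : x = 1 := by
  classical
  letI : CommGroup M := { (inferInstance : Group M) with mul_comm := hcomm }
  haveI : Fintype A := Fintype.ofFinite A
  let N : M →* M :=
    { toFun := fun k => ∏ a : A, a • k
      map_one' := by simp
      map_mul' := fun u v => by simp [smul_mul', Finset.prod_mul_distrib] }
  have hN : ∀ k, N k = ∏ a : A, a • k := fun k => rfl
  have hker : Subgroup.closure {y : M | ∃ (a : A) (k : M), y = k⁻¹ * a • k} ≤ N.ker := by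
    rw [Subgroup.closure_le]
    rintro y ⟨a, k, rfl⟩
    rw [SetLike.mem_coe, MonoidHom.mem_ker, map_mul, map_inv, hN (a • k), hN k]
    have h : ∏ b : A, b • a • k = ∏ b : A, b • k :=
      Fintype.prod_equiv (Equiv.mulRight a) _ _ (fun b => (mul_smul b a k).symm)
    rw [h]; exact inv_mul_cancel _
  have h1 : N x = 1 := MonoidHom.mem_ker.mp (hker hx)
  rw [hN] at h1
  simp_rw [hfix] at h1
  rw [Finset.prod_const, Finset.card_univ, ← Nat.card_eq_fintype_card] at h1
  have hcop' : (Nat.card M).Coprime (Nat.card A) := hcop.symm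
  apply (powCoprime hcop').injective
  show x ^ Nat.card A = 1 ^ Nat.card A
  rw [h1, one_pow]

/-- restricted action on an invariant subgroup -/
def zgSubAct {A G : Type*} [Group A] [Group G] [MulDistribMulAction A G] (K : Subgroup G)
    (hinv : ∀ (a : A), ∀ k ∈ K, a • k ∈ K) : MulDistribMulAction A ↥K where
  smul a k := ⟨a • (k : G), hinv a k k.2⟩
  one_smul k := Subtype.ext (one_smul A (k : G))
  mul_smul a b k := Subtype.ext (mul_smul a b (k : G))
  smul_mul a k l := Subtype.ext (smul_mul' a (k : G) (l : G))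
  smul_one a := Subtype.ext (smul_one a)

/-- in a finite cyclic group, elements of order dividing `p` lie in any subgroup of order `p` -/
theorem zg_cyc_mem {Z : Type*} [Group Z] [Finite Z] [IsCyclic Z] {p : ℕ} (hp : p.Prime)
    (x y : Z) (hy : orderOf y = p) (hx : x ^ p = 1) : x ∈ Subgroup.zpowers y := by
  classical
  haveI : Fintype Z := Fintype.ofFinite Z
  have hT : (Finset.univ.filter (fun a : Z => a ^ p = 1)).card ≤ p :=
    IsCyclic.card_pow_eq_one_le hp.pos
  have hU : ((Finset.range p).image (fun i => y ^ i)).card = p := by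
    rw [Finset.card_image_of_injOn, Finset.card_range]
    intro i hi j hj hij
    have hi' : i < orderOf y := by rw [hy]; exact Finset.mem_range.mp (Finset.mem_coe.mp hi)
    have hj' : j < orderOf y := by rw [hy]; exact Finset.mem_range.mp (Finset.mem_coe.mp hj)
    exact pow_injOn_Iio_orderOf hi' hj' hij
  have hUT : (Finset.range p).image (fun i => y ^ i) ⊆
      Finset.univ.filter (fun a : Z => a ^ p = 1) := by
    intro z hz
    obtain ⟨i, _, hi⟩ := Finset.mem_image.mp hz
    rw [Finset.mem_filter]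
    refine ⟨Finset.mem_univ _, ?_⟩
    rw [← hi]
    show (y ^ i) ^ p = 1
    rw [← pow_mul, mul_comm, pow_mul, ← hy, pow_orderOf_eq_one, one_pow]
  have hEq := Finset.eq_of_subset_of_card_le hUT (hT.trans_eq hU.symm)
  have hxT : x ∈ Finset.univ.filter (fun a : Z => a ^ p = 1) := by
    rw [Finset.mem_filter]; exact ⟨Finset.mem_univ _, hx⟩
  rw [← hEq] at hxT
  obtain ⟨i, _, hi⟩ := Finset.mem_image.mp hxT
  rw [← hi]
  exact Subgroup.npow_mem_zpowers y i

theorem zg_cyc_mem_sub {G : Type*} [Group G] [Finite G] (P : Subgroup G) [IsCyclic ↥P] {p : ℕ}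
    (hp : p.Prime) (x y : G) (hxP : x ∈ P) (hyP : y ∈ P) (hy : orderOf y = p) (hx : x ^ p = 1) :
    x ∈ Subgroup.zpowers y := by
  have h := zg_cyc_mem (Z := ↥P) hp ⟨x, hxP⟩ ⟨y, hyP⟩ (by rw [Subgroup.orderOf_mk]; exact hy)
    (Subtype.ext (by simpa using hx))
  obtain ⟨k, hk⟩ := Subgroup.mem_zpowers_iff.mp h
  rw [Subgroup.mem_zpowers_iff]
  refine ⟨k, ?_⟩
  have := congrArg Subtype.val hk
  simpa using this

/-- coprime action on a group with cyclic Sylow subgroups -/
theorem zg_main {G A : Type*} [Group G] [Finite G] [Group A] [Finite A]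
    [MulDistribMulAction A G] (hcop : (Nat.card A).Coprime (Nat.card G))
    (hcyc : ∀ (p : ℕ) [Fact p.Prime] (P : Sylow p G), IsCyclic (P : Subgroup G)) :
    (Nat.card (MulAction.fixedPoints A G : Set G)).Coprime
        (Nat.card G / Nat.card (MulAction.fixedPoints A G : Set G)) ∧
    IsCyclic (Subgroup.closure {y : G | ∃ (a : A) (g : G), y = g⁻¹ * a • g}) ∧
    (Subgroup.closure {y : G | ∃ (a : A) (g : G), y = g⁻¹ * a • g}).Normal ∧
    (Subgroup.closure {y : G | ∃ (a : A) (g : G), y = g⁻¹ * a • g} : Set G) ∩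
        MulAction.fixedPoints A G = {1} ∧
    Subgroup.closure {y : G | ∃ (a : A) (g : G), y = g⁻¹ * a • g} ⊔
        Subgroup.closure (MulAction.fixedPoints A G) = ⊤ := by
  classical
  haveI hZ : IsZGroup G := ⟨fun p hp P => haveI := Fact.mk hp; hcyc p P⟩
  obtain ⟨K, hKdef⟩ : ∃ K : Subgroup G,
      K = Subgroup.closure {y : G | ∃ (a : A) (g : G), y = g⁻¹ * a • g} := ⟨_, rfl⟩
  rw [← hKdef]
  have hgen : ∀ (a : A) (g : G), g⁻¹ * a • g ∈ K := fun a g => by
    rw [hKdef]; exact Subgroup.subset_closure ⟨a, g, rfl⟩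
  let Cs : Subgroup G :=
    { carrier := MulAction.fixedPoints A G
      mul_mem' := fun {x y} hx hy => MulAction.mem_fixedPoints.mpr (fun a => by
        rw [smul_mul', MulAction.mem_fixedPoints.mp hx a, MulAction.mem_fixedPoints.mp hy a])
      one_mem' := MulAction.mem_fixedPoints.mpr (fun a => smul_one a)
      inv_mem' := fun {x} hx => MulAction.mem_fixedPoints.mpr (fun a => by
        rw [smul_inv', MulAction.mem_fixedPoints.mp hx a]) }
  have hCs : ∀ x : G, x ∈ Cs ↔ ∀ a : A, a • x = x := fun x => Iff.rfl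
  -- K is normal
  have hKn : K.Normal := by
    constructor
    intro y hy h
    rw [hKdef] at hy
    induction hy using Subgroup.closure_induction with
    | mem y hy =>
      obtain ⟨a, g, rfl⟩ := hy
      have e : h * (g⁻¹ * a • g) * h⁻¹ =
          ((g * h⁻¹)⁻¹ * a • (g * h⁻¹)) * ((h⁻¹)⁻¹ * a • h⁻¹)⁻¹ := by
        rw [smul_mul', smul_inv']; group
      rw [e]
      exact K.mul_mem (hgen a _) (K.inv_mem (hgen a _))
    | one => rw [mul_one, mul_inv_cancel]; exact K.one_mem
    | mul x y hx hy ihx ihy =>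
      have e : h * (x * y) * h⁻¹ = (h * x * h⁻¹) * (h * y * h⁻¹) := by group
      rw [e]; exact K.mul_mem ihx ihy
    | inv x hx ihx =>
      have e : h * x⁻¹ * h⁻¹ = (h * x * h⁻¹)⁻¹ := by group
      rw [e]; exact K.inv_mem ihx
  -- K is A-invariant
  have hKinv : ∀ (b : A), ∀ y ∈ K, b • y ∈ K := by
    intro b y hy
    rw [hKdef] at hy
    induction hy using Subgroup.closure_induction with
    | mem y hy =>
      obtain ⟨a, g, rfl⟩ := hy
      have e : b • (g⁻¹ * a • g) = (g⁻¹ * b • g)⁻¹ * (g⁻¹ * (b * a) • g) := by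
        rw [smul_mul', smul_inv', smul_smul]; group
      rw [e]
      exact K.mul_mem (K.inv_mem (hgen b g)) (hgen (b * a) g)
    | one => rw [smul_one]; exact K.one_mem
    | mul x y hx hy ihx ihy => rw [smul_mul']; exact K.mul_mem ihx ihy
    | inv x hx ihx => rw [smul_inv']; exact K.inv_mem ihx
  -- the commutator subgroup
  haveI hGc : IsCyclic ↥(commutator G) := IsZGroup.isCyclic_commutator G
  have hGinv : ∀ (a : A), ∀ w ∈ commutator G, a • w ∈ commutator G := by
    intro a w hw
    have hchar : (commutator G).Characteristic := inferInstance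
    exact (Subgroup.characteristic_iff_map_le.mp hchar (MulDistribMulAction.toMulAut A G a))
      (Subgroup.mem_map_of_mem _ hw)
  have hpow : ∀ g : G, ∃ m : ℤ, ∀ w ∈ commutator G, g * w * g⁻¹ = w ^ m := by
    intro g
    obtain ⟨m, hm⟩ := MonoidHom.map_cyclic
      ((MulAut.conjNormal g : MulAut ↥(commutator G)).toMonoidHom)
    refine ⟨m, fun w hw => ?_⟩
    have := congrArg Subtype.val (hm ⟨w, hw⟩)
    simpa using this
  obtain ⟨F, hFdef⟩ : ∃ F : Subgroup G, F = Subgroup.centralizer (commutator G : Set G) :=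
    ⟨_, rfl⟩
  have hKF : K ≤ F := by
    rw [hKdef, Subgroup.closure_le]
    rintro y ⟨a, g, rfl⟩
    rw [SetLike.mem_coe, hFdef, Subgroup.mem_centralizer_iff]
    intro w hw
    obtain ⟨m, hm⟩ := hpow g
    have hw' : a⁻¹ • w ∈ commutator G := hGinv a⁻¹ w hw
    have h1 : a • g * w * (a • g)⁻¹ = g * w * g⁻¹ := by
      have e : a • g * w * (a • g)⁻¹ = a • (g * a⁻¹ • w * g⁻¹) := by
        rw [smul_mul', smul_mul', smul_inv', smul_smul, mul_inv_cancel, one_smul]
      rw [e, hm _ hw', smul_zpow', smul_smul, mul_inv_cancel, one_smul, hm w hw]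
    have h2 : a • g * w = g * w * g⁻¹ * a • g := by
      rw [← h1]; group
    calc w * (g⁻¹ * a • g) = g⁻¹ * (g * w * g⁻¹ * a • g) := by group
      _ = g⁻¹ * (a • g * w) := by rw [h2]
      _ = g⁻¹ * a • g * w := by group
  haveI hFnil : Group.IsNilpotent ↥F := by
    refine ⟨⟨2, ?_⟩⟩
    rw [eq_top_iff]
    intro x _
    apply (Subgroup.mem_upperCentralSeries_succ_iff (n := 1)).mpr
    intro y
    rw [Subgroup.upperCentralSeries_one, Subgroup.mem_center_iff]
    intro z
    have hc : (⁅(x : G), (y : G)⁆) ∈ commutator G := by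
      rw [commutator_def]
      exact Subgroup.commutator_mem_commutator (Subgroup.mem_top _) (Subgroup.mem_top _)
    have hz : (z : G) ∈ Subgroup.centralizer (commutator G : Set G) := by
      rw [← hFdef]; exact z.2
    have h3 := (Subgroup.mem_centralizer_iff.mp hz) _ hc
    rw [commutatorElement_def] at h3
    apply Subtype.ext
    exact h3.symm
  haveI hFc : IsCyclic ↥F := inferInstance
  haveI hKc : IsCyclic ↥K := Subgroup.isCyclic_of_le hKF
  have hKcomm : ∀ x y : ↥K, x * y = y * x := fun x y =>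
    (IsCyclic.commGroup (α := ↥K)).mul_comm x y
  letI actK : MulDistribMulAction A ↥K := zgSubAct K hKinv
  have hcopK : (Nat.card A).Coprime (Nat.card ↥K) :=
    Nat.Coprime.coprime_dvd_right (Subgroup.card_subgroup_dvd_card K) hcop
  have hdecomp : ∀ g : G, ∃ c ∈ Cs, ∃ k ∈ K, g = c * k := by
    intro g
    obtain ⟨k, hk⟩ := zg_cocycle_split (A := A) (M := ↥K) hKcomm hcopK
      (fun a => ⟨g⁻¹ * a • g, hgen a g⟩)
      (fun a b => by
        apply Subtype.ext
        show g⁻¹ * (a * b) • g = g⁻¹ * a • g * a • (g⁻¹ * b • g)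
        rw [smul_mul', smul_inv', smul_smul]; group)
    refine ⟨g * k, (hCs _).mpr (fun a => ?_), (k : G)⁻¹, K.inv_mem k.2, by group⟩
    have h := congrArg Subtype.val (hk a)
    have h' : g⁻¹ * a • g * a • (k : G) = (k : G) := h
    rw [smul_mul']
    calc a • g * a • (k : G) = g * (g⁻¹ * a • g * a • (k : G)) := by group
      _ = g * k := by rw [h']
  have hKC : ∀ x ∈ K, x ∈ Cs → x = 1 := by
    intro x hxK hxC
    have hsub : ∀ y ∈ K, y ∈ (Subgroup.closure
        {y : ↥K | ∃ (a : A) (k : ↥K), y = k⁻¹ * a • k}).map K.subtype := by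
      intro y hy
      have hy' : y ∈ Subgroup.closure {y : G | ∃ (a : A) (g : G), y = g⁻¹ * a • g} := by
        rw [← hKdef]; exact hy
      refine (Subgroup.closure_le _).mpr ?_ hy'
      rintro y ⟨a, g, rfl⟩
      obtain ⟨c, hc, k, hk, rfl⟩ := hdecomp g
      rw [SetLike.mem_coe, Subgroup.mem_map]
      refine ⟨(⟨k, hk⟩ : ↥K)⁻¹ * a • (⟨k, hk⟩ : ↥K),
        Subgroup.subset_closure ⟨a, ⟨k, hk⟩, rfl⟩, ?_⟩
      show k⁻¹ * a • k = (c * k)⁻¹ * a • (c * k)
      rw [smul_mul', (hCs c).mp hc a]; group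
    obtain ⟨x', hx'S, hx'eq⟩ := Subgroup.mem_map.mp (hsub x hxK)
    have hfix : ∀ a : A, a • x' = x' := by
      intro a
      apply Subtype.ext
      show a • (x' : G) = (x' : G)
      have e : (x' : G) = x := hx'eq
      rw [e]; exact (hCs x).mp hxC a
    have h1 := zg_norm_kernel (A := A) (M := ↥K) hKcomm hcopK x' hx'S hfix
    calc x = K.subtype x' := hx'eq.symm
      _ = K.subtype 1 := by rw [h1]
      _ = 1 := map_one _
  have hcompl : Subgroup.IsComplement' Cs K := by
    apply Subgroup.isComplement'_of_disjoint_and_mul_eq_univ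
    · rw [disjoint_iff, Subgroup.eq_bot_iff_forall]
      intro x hx
      exact hKC x (Subgroup.mem_inf.mp hx).2 (Subgroup.mem_inf.mp hx).1
    · rw [Set.eq_univ_iff_forall]
      intro g
      obtain ⟨c, hc, k, hk, rfl⟩ := hdecomp g
      exact Set.mul_mem_mul hc hk
  have hcard : Nat.card ↥Cs * Nat.card ↥K = Nat.card G := hcompl.card_mul_card
  have hcopCK : (Nat.card ↥Cs).Coprime (Nat.card ↥K) := by
    apply Nat.coprime_of_dvd
    intro p hp hpC hpK
    haveI := Fact.mk hp
    obtain ⟨x, hx⟩ := exists_prime_orderOf_dvd_card' (G := ↥Cs) p hpC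
    obtain ⟨y, hy⟩ := exists_prime_orderOf_dvd_card' (G := ↥K) p hpK
    have hx' : orderOf (x : G) = p := by rw [Subgroup.orderOf_coe]; exact hx
    have hy' : orderOf (y : G) = p := by rw [Subgroup.orderOf_coe]; exact hy
    have hxp : IsPGroup p ↥(Subgroup.zpowers (x : G)) :=
      IsPGroup.of_card (n := 1) (by rw [Nat.card_zpowers, hx', pow_one])
    obtain ⟨P, hP⟩ := hxp.exists_le_sylow
    have hyp : IsPGroup p ↥(Subgroup.zpowers (y : G)) :=
      IsPGroup.of_card (n := 1) (by rw [Nat.card_zpowers, hy', pow_one])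
    obtain ⟨P', hP'⟩ := hyp.exists_le_sylow
    obtain ⟨g, hg⟩ := MulAction.exists_smul_eq G P' P
    have hyP : g * (y : G) * g⁻¹ ∈ (P : Subgroup G) := by
      have h1 : MulAut.conj g • (y : G) ∈ MulAut.conj g • (P' : Subgroup G) :=
        Subgroup.smul_mem_pointwise_smul _ _ _ (hP' (Subgroup.mem_zpowers _))
      have h2 : ((g • P' : Sylow p G) : Subgroup G) = (P : Subgroup G) := by rw [hg]
      rw [← h2]
      exact h1
    haveI : IsCyclic ↥(P : Subgroup G) := hcyc p P
    have hy'' : orderOf (g * (y : G) * g⁻¹) = p := by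
      have h1 : orderOf (g * (y : G) * g⁻¹) = orderOf (y : G) := (MulAut.conj g).orderOf_eq (y : G)
      rw [h1, hy']
    have hxK : (x : G) ∈ K := by
      have hzK : Subgroup.zpowers (g * (y : G) * g⁻¹) ≤ K := by
        rw [Subgroup.zpowers_le]; exact hKn.conj_mem _ y.2 g
      exact hzK (zg_cyc_mem_sub (P : Subgroup G) hp (x : G) _ (hP (Subgroup.mem_zpowers _))
        hyP hy'' (by rw [← hx']; exact pow_orderOf_eq_one _))
    have hx1 : (x : G) = 1 := hKC _ hxK x.2
    rw [hx1, orderOf_one] at hx'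
    exact hp.one_lt.ne hx'
  have hCpos : 0 < Nat.card ↥Cs := Nat.card_pos
  have hcardfix : Nat.card (MulAction.fixedPoints A G : Set G) = Nat.card ↥Cs := rfl
  refine ⟨?_, hKc, hKn, ?_, ?_⟩
  · rw [hcardfix, ← hcard, Nat.mul_div_cancel_left _ hCpos]
    exact hcopCK
  · ext x
    constructor
    · rintro ⟨hxK, hxC⟩
      exact Set.mem_singleton_iff.mpr (hKC x hxK hxC)
    · intro hx
      rw [Set.mem_singleton_iff] at hx
      rw [hx]
      exact ⟨K.one_mem, Cs.one_mem⟩
  · have hclC : Subgroup.closure (MulAction.fixedPoints A G : Set G) = Cs :=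
      Subgroup.closure_eq Cs
    rw [hclC, eq_top_iff]
    intro g _
    obtain ⟨c, hc, k, hk, rfl⟩ := hdecomp g
    exact (K ⊔ Cs).mul_mem (Subgroup.mem_sup_right hc) (Subgroup.mem_sup_left hk)

end Cfsg.Agent.Helper11
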